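-- helper64: piece BR of CALL S2332 part C (owner helper90): transfer of the minimal-degree bound
-- from `SpecialLinearGroup F (Fin n → F)` to `Matrix.SpecialLinearGroup (Fin n) F`.
import Mathlib

set_option autoImplicit false

namespace Cfsg.Agent.Helper64

open Module

/-- Subrepresentations of a representation and of its pull-back along a group isomorphism. -/
def mdbrSubrepIso {G H W : Type*} [Group G] [Group H] [AddCommGroup W] [Module ℂ W]
    (ρ : Representation ℂ G W) (e : H ≃* G) :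
    Subrepresentation (ρ.comp e.toMonoidHom : Representation ℂ H W) ≃o Subrepresentation ρ where
  toFun S := ⟨S.toSubmodule, fun g v hv => by
    have h := S.apply_mem_toSubmodule (e.symm g) hv
    simpa using h⟩
  invFun S := ⟨S.toSubmodule, fun g v hv => S.apply_mem_toSubmodule (e g) hv⟩
  left_inv _ := rfl
  right_inv _ := rfl
  map_rel_iff' := Iff.rfl

theorem mdbr_isIrreducible_comp {G H W : Type*} [Group G] [Group H] [AddCommGroup W]
    [Module ℂ W] (ρ : Representation ℂ G W) (e : H ≃* G) (hirr : ρ.IsIrreducible) :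
    Representation.IsIrreducible (ρ.comp e.toMonoidHom : Representation ℂ H W) :=
  (mdbrSubrepIso ρ e).isSimpleOrder_iff.mpr hirr

/-- An irreducible representation on `Fin k → ℂ`, `2 ≤ k`, is not trivial. -/
theorem mdbr_nontrivial {G : Type*} [Group G] (k : ℕ) (hk : 2 ≤ k)
    (ρ : Representation ℂ G (Fin k → ℂ)) (hirr : ρ.IsIrreducible) : ∃ g, ρ g ≠ 1 := by
  by_contra hall'
  have hall : ∀ g, ρ g = 1 := fun g => by_contra (fun hg => hall' ⟨g, hg⟩)
  obtain ⟨k', rfl⟩ : ∃ k', k = k' + 2 := ⟨k - 2, by omega⟩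
  let S : Subrepresentation ρ :=
    ⟨LinearMap.ker (LinearMap.proj (0 : Fin (k' + 2)) : (Fin (k' + 2) → ℂ) →ₗ[ℂ] ℂ),
      fun g v hv => by rw [hall g]; exact hv⟩
  haveI : IsSimpleOrder (Subrepresentation ρ) := hirr
  rcases eq_bot_or_eq_top S with h | h
  · have h1 : (Pi.single (1 : Fin (k' + 2)) (1 : ℂ) : Fin (k' + 2) → ℂ) ∈ S.toSubmodule := by
      show _ ∈ LinearMap.ker _
      rw [LinearMap.mem_ker]
      simp
    rw [h] at h1
    have h2 : (Pi.single (1 : Fin (k' + 2)) (1 : ℂ) : Fin (k' + 2) → ℂ) = 0 := by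
      have h3 : (Pi.single (1 : Fin (k' + 2)) (1 : ℂ) : Fin (k' + 2) → ℂ) ∈
          (⊥ : Submodule ℂ (Fin (k' + 2) → ℂ)) := h1
      simpa using h3
    have h4 := congrFun h2 1
    simp at h4
  · have h1 : (Pi.single (0 : Fin (k' + 2)) (1 : ℂ) : Fin (k' + 2) → ℂ) ∈ S.toSubmodule := by
      rw [h]
      show _ ∈ (⊤ : Submodule ℂ (Fin (k' + 2) → ℂ))
      exact Submodule.mem_top
    have h2 : (Pi.single (0 : Fin (k' + 2)) (1 : ℂ) : Fin (k' + 2) → ℂ) ∈
        LinearMap.ker (LinearMap.proj (0 : Fin (k' + 2)) : (Fin (k' + 2) → ℂ) →ₗ[ℂ] ℂ) := h1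
    rw [LinearMap.mem_ker] at h2
    simp at h2

/-- PIECE BR -/
theorem sl_transfer {F : Type*} [Field F] [Fintype F] [DecidableEq F] (n : ℕ) (B : ℕ)
    (h : ∀ (W : Type) [AddCommGroup W] [Module ℂ W] [FiniteDimensional ℂ W]
      (ρ : Representation ℂ (SpecialLinearGroup F (Fin n → F)) W), ρ.IsIrreducible →
      (∃ g, ρ g ≠ 1) → B ≤ finrank ℂ W) :
    ∀ (k : ℕ) (ρ : Representation ℂ (Matrix.SpecialLinearGroup (Fin n) F) (Fin k → ℂ)),
      ρ.IsIrreducible → 2 ≤ k → B ≤ k := by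
  intro k ρ hirr hk
  have e : SpecialLinearGroup F (Fin n → F) ≃* Matrix.SpecialLinearGroup (Fin n) F :=
    (Matrix.SpecialLinearGroup.toLin'_equiv).symm
  have hσ := mdbr_isIrreducible_comp ρ e hirr
  have h1 := h (Fin k → ℂ) (ρ.comp e.toMonoidHom) hσ (mdbr_nontrivial k hk _ hσ)
  rwa [Module.finrank_fin_fun] at h1

end Cfsg.Agent.Helper64
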