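import Mathlib
import Cfsg.Agent.Helper64.Index
import Cfsg.Agent.Helper64.PiTwo
import Cfsg.Agent.Helper64.MetaFrattini

set_option autoImplicit false

namespace Cfsg.Agent.Helper64

section DirectFactor

variable {G : Type*} [Group G]

/-- If a subgroup contains all prime-power-order powers of `c` then it contains `c`. -/
theorem dirfac_mem_of_prime_powers [Finite G] (T : Subgroup G) (c : G)
    (h : ∀ q k : ℕ, q.Prime → q ^ k ∣ orderOf c → c ^ (orderOf c / q ^ k) ∈ T) : c ∈ T := by
  have hm : 0 < orderOf c := orderOf_pos c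
  have hle : T ⊓ Subgroup.zpowers c ≤ Subgroup.zpowers c := inf_le_right
  have hdvd : orderOf c ∣ Nat.card (T ⊓ Subgroup.zpowers c : Subgroup G) := by
    rw [Nat.dvd_iff_prime_pow_dvd_dvd]
    intro q k hq hqk
    have hmem : c ^ (orderOf c / q ^ k) ∈ (T ⊓ Subgroup.zpowers c : Subgroup G) :=
      Subgroup.mem_inf.mpr ⟨h q k hq hqk, Subgroup.pow_mem _ (Subgroup.mem_zpowers c) _⟩
    have ho : orderOf (c ^ (orderOf c / q ^ k)) = q ^ k := orderOf_pow_orderOf_div hm.ne' hqk
    rw [← ho]
    have h1 := orderOf_dvd_natCard (⟨_, hmem⟩ : (T ⊓ Subgroup.zpowers c : Subgroup G))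
    rwa [← Subgroup.orderOf_coe] at h1
  have hcard : Nat.card (Subgroup.zpowers c) ≤
      Nat.card (T ⊓ Subgroup.zpowers c : Subgroup G) := by
    rw [Nat.card_zpowers]; exact Nat.le_of_dvd Nat.card_pos hdvd
  have heq := Subgroup.eq_of_le_of_card_ge hle hcard
  have h2 : c ∈ (T ⊓ Subgroup.zpowers c : Subgroup G) := by
    rw [heq]; exact Subgroup.mem_zpowers c
  exact (Subgroup.mem_inf.mp h2).1

theorem dirfac_eq_of_le_of_index_eq [Finite G] {H K : Subgroup G} (h : H ≤ K)
    (hi : H.index = K.index) : H = K := by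
  have h1 := Subgroup.relIndex_mul_index h
  rw [hi] at h1
  have hpos : 0 < K.index := Nat.pos_of_ne_zero Subgroup.index_ne_zero_of_finite
  have h2 : H.relIndex K = 1 := by
    have h3 : H.relIndex K * K.index = 1 * K.index := by rw [h1, one_mul]
    exact Nat.eq_of_mul_eq_mul_right hpos h3
  exact le_antisymm h (Subgroup.relIndex_eq_one.mp h2)

theorem dirfac_mem_centralizer (t g : G) :
    g ∈ Subgroup.centralizer ({t} : Set G) ↔ t * g = g * t := by
  simp [Subgroup.mem_centralizer_iff]

/-- S3987. -/
theorem dirfac_iff [Finite G] (p : ℕ) [Fact p.Prime] :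
    (∃ (P : Sylow p G) (K : Subgroup G), (P : Subgroup G).Normal ∧ K.Normal ∧
        (P : Subgroup G) ⊓ K = ⊥ ∧ (P : Subgroup G) ⊔ K = ⊤) ↔
      ∀ x y : G, (∃ a : ℕ, orderOf x = p ^ a) → (∃ q b : ℕ, q.Prime ∧ q ≠ p ∧ orderOf y = q ^ b) →
        (Subgroup.centralizer ({x * y} : Set G)).index =
          (Subgroup.centralizer ({x} : Set G)).index *
            (Subgroup.centralizer ({y} : Set G)).index := by
  have hpp := (Fact.out : p.Prime)
  constructor
  · rintro ⟨P, K, hPn, hKn, hinf, hsup⟩ x y ⟨a, ha⟩ ⟨q, b, hq, hqp, hb⟩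
    haveI := hPn
    haveI := hKn
    have hcard : Nat.card G = Nat.card (P : Subgroup G) * Nat.card K := by
      have h1 := card_sup_mul_card_inf (P : Subgroup G) K
      rw [hinf, hsup, Subgroup.card_bot, mul_one, Subgroup.card_top] at h1
      exact h1
    have hKidx : K.index = Nat.card (P : Subgroup G) := by
      have h1 := K.card_mul_index
      rw [hcard] at h1
      have hpos : 0 < Nat.card K := Nat.card_pos
      have h2 : Nat.card K * K.index = Nat.card K * Nat.card (P : Subgroup G) := by
        rw [h1, mul_comm]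
      exact Nat.eq_of_mul_eq_mul_left hpos h2
    obtain ⟨n, hn⟩ := IsPGroup.iff_card.mp P.2
    have hPidx : ¬ p ∣ (P : Subgroup G).index := P.not_dvd_index
    have hxP : x ∈ (P : Subgroup G) := by
      have hxp : IsPGroup p (Subgroup.zpowers x) :=
        IsPGroup.of_card (n := a) (by rw [Nat.card_zpowers, ha])
      obtain ⟨Q, hQ⟩ := hxp.exists_le_sylow
      obtain ⟨g, rfl⟩ := MulAction.exists_smul_eq G P Q
      rw [Sylow.smul_eq_of_normal] at hQ
      exact hQ (Subgroup.mem_zpowers x)
    have hyK : y ∈ K := by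
      apply mem_of_coprime_index K y
      rw [hKidx, hn, hb]
      exact Nat.Coprime.pow _ _ ((Nat.coprime_primes hq hpp).mpr hqp)
    have hPK : ∀ u ∈ (P : Subgroup G), ∀ k ∈ K, Commute u k := fun u hu k hk =>
      Subgroup.commute_of_normal_of_disjoint _ _ hPn hKn (disjoint_iff.mpr hinf) u k hu hk
    have hcomm : Commute x y := hPK x hxP y hyK
    have hcop : Nat.Coprime (q ^ b) (p ^ a) :=
      Nat.Coprime.pow _ _ ((Nat.coprime_primes hq hpp).mpr hqp)
    have hxz : x ∈ Subgroup.zpowers (x * y) := by
      apply mem_of_pow_mem_of_coprime hcop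
      · have h1 : (x * y) ^ (q ^ b) = x ^ (q ^ b) := by
          rw [hcomm.mul_pow, ← hb, pow_orderOf_eq_one, mul_one]
        rw [← h1]
        exact Subgroup.pow_mem _ (Subgroup.mem_zpowers _) _
      · rw [← ha, pow_orderOf_eq_one]
        exact Subgroup.one_mem _
    have hyz : y ∈ Subgroup.zpowers (x * y) := by
      apply mem_of_pow_mem_of_coprime hcop.symm
      · have h1 : (x * y) ^ (p ^ a) = y ^ (p ^ a) := by
          rw [hcomm.mul_pow, ← ha, pow_orderOf_eq_one, one_mul]
        rw [← h1]
        exact Subgroup.pow_mem _ (Subgroup.mem_zpowers _) _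
      · rw [← hb, pow_orderOf_eq_one]
        exact Subgroup.one_mem _
    have hcent : Subgroup.centralizer ({x * y} : Set G) =
        Subgroup.centralizer {x} ⊓ Subgroup.centralizer {y} := by
      apply le_antisymm
      · intro g hg
        rw [dirfac_mem_centralizer] at hg
        have hz : Subgroup.zpowers (x * y) ≤ Subgroup.centralizer ({g} : Set G) :=
          Subgroup.zpowers_le.mpr ((dirfac_mem_centralizer g (x * y)).mpr hg.symm)
        have h1 := (dirfac_mem_centralizer g x).mp (hz hxz)
        have h2 := (dirfac_mem_centralizer g y).mp (hz hyz)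
        exact Subgroup.mem_inf.mpr ⟨(dirfac_mem_centralizer x g).mpr h1.symm,
          (dirfac_mem_centralizer y g).mpr h2.symm⟩
      · intro g hg
        obtain ⟨h1, h2⟩ := Subgroup.mem_inf.mp hg
        rw [dirfac_mem_centralizer] at h1 h2 ⊢
        rw [mul_assoc, h2, ← mul_assoc, h1, mul_assoc]
    rw [hcent]
    have hd1 : (Subgroup.centralizer ({x} : Set G)).index ∣ K.index :=
      Subgroup.index_dvd_of_le (fun k hk =>
        (dirfac_mem_centralizer x k).mpr (hPK x hxP k hk).eq)
    have hd2 : (Subgroup.centralizer ({y} : Set G)).index ∣ (P : Subgroup G).index :=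
      Subgroup.index_dvd_of_le (fun u hu =>
        (dirfac_mem_centralizer y u).mpr (hPK u hu y hyK).eq.symm)
    have hcop2 : Nat.Coprime (Subgroup.centralizer ({x} : Set G)).index
        (Subgroup.centralizer ({y} : Set G)).index := by
      apply Nat.Coprime.coprime_dvd_left hd1
      apply Nat.Coprime.coprime_dvd_right hd2
      rw [hKidx, hn]
      exact Nat.Coprime.pow_left n ((Nat.Prime.coprime_iff_not_dvd hpp).mpr hPidx)
    apply le_antisymm Subgroup.index_inf_le
    apply Nat.le_of_dvd (Nat.pos_of_ne_zero Subgroup.index_ne_zero_of_finite)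
    exact hcop2.mul_dvd_of_dvd_of_dvd (Subgroup.index_dvd_of_le inf_le_left)
      (Subgroup.index_dvd_of_le inf_le_right)
  · intro hcls
    have hS1 : ∀ x y : G, (∃ a : ℕ, orderOf x = p ^ a) →
        (∃ q b : ℕ, q.Prime ∧ q ≠ p ∧ orderOf y = q ^ b) → Commute x y := by
      intro x y hx hy
      have h := hcls x y hx hy
      have hle : Subgroup.centralizer ({x} : Set G) ⊓ Subgroup.centralizer {y} ≤
          Subgroup.centralizer {x * y} := by
        intro g hg
        obtain ⟨h1, h2⟩ := Subgroup.mem_inf.mp hg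
        rw [dirfac_mem_centralizer] at h1 h2 ⊢
        rw [mul_assoc, h2, ← mul_assoc, h1, mul_assoc]
      have h1 : (Subgroup.centralizer ({x} : Set G) ⊓ Subgroup.centralizer {y}).index ≤
          (Subgroup.centralizer ({x} : Set G)).index *
            (Subgroup.centralizer ({y} : Set G)).index := Subgroup.index_inf_le
      have h2 := Subgroup.index_dvd_of_le hle
      have h3 : (Subgroup.centralizer ({x} : Set G) ⊓ Subgroup.centralizer {y}).index =
          (Subgroup.centralizer ({x * y} : Set G)).index :=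
        le_antisymm (h ▸ h1)
          (Nat.le_of_dvd (Nat.pos_of_ne_zero Subgroup.index_ne_zero_of_finite) h2)
      have heq := dirfac_eq_of_le_of_index_eq hle h3
      have h4 : x * y ∈ Subgroup.centralizer ({x * y} : Set G) :=
        (dirfac_mem_centralizer _ _).mpr rfl
      rw [← heq] at h4
      have h5 := (dirfac_mem_centralizer x (x * y)).mp (Subgroup.mem_inf.mp h4).1
      have h6 : x * (x * y) = x * (y * x) := by rw [h5, mul_assoc]
      exact mul_left_cancel h6
    have hS2 : ∀ x c : G, (∃ a : ℕ, orderOf x = p ^ a) → (orderOf c).Coprime p →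
        Commute x c := by
      intro x c hx hc
      have h1 : c ∈ Subgroup.centralizer ({x} : Set G) := by
        apply dirfac_mem_of_prime_powers
        intro q k hq hqk
        rcases Nat.eq_zero_or_pos k with hk | hk
        · subst hk
          rw [pow_zero, Nat.div_one, pow_orderOf_eq_one]
          exact Subgroup.one_mem _
        · have hqp : q ≠ p := by
            intro hqp'
            have h2 : p ∣ orderOf c := hqp' ▸ ((dvd_pow_self q hk.ne').trans hqk)
            exact hpp.one_lt.ne' (Nat.Coprime.eq_one_of_dvd hc.symm h2)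
          have ho : orderOf (c ^ (orderOf c / q ^ k)) = q ^ k :=
            orderOf_pow_orderOf_div (orderOf_pos c).ne' hqk
          exact (dirfac_mem_centralizer _ _).mpr (hS1 x _ hx ⟨q, k, hq, hqp, ho⟩).eq
      exact (dirfac_mem_centralizer x c).mp h1
    let P : Sylow p G := default
    have hPel : ∀ x ∈ (P : Subgroup G), ∃ a : ℕ, orderOf x = p ^ a := by
      intro x hx
      obtain ⟨a, ha⟩ := (IsPGroup.iff_orderOf.mp P.2) ⟨x, hx⟩
      exact ⟨a, by rw [← ha, ← Subgroup.orderOf_coe]⟩
    have hPidx : ¬ p ∣ (P : Subgroup G).index := P.not_dvd_index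
    have hPn : (P : Subgroup G).Normal := by
      rw [← Subgroup.normalizer_eq_top_iff, ← Subgroup.index_eq_one,
        Nat.eq_one_iff_not_exists_prime_dvd]
      intro r hr hrd
      by_cases hrp : r = p
      · subst hrp
        exact hPidx (hrd.trans (Subgroup.index_dvd_of_le Subgroup.le_normalizer))
      · haveI : Fact r.Prime := ⟨hr⟩
        let Q : Sylow r G := default
        have hQle : (Q : Subgroup G) ≤ Subgroup.normalizer ((P : Subgroup G) : Set G) := by
          refine le_trans ?_ (Subgroup.centralizer_le_normalizer _)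
          intro c hc
          rw [Subgroup.mem_centralizer_iff]
          intro x hx
          obtain ⟨k, hk⟩ := (IsPGroup.iff_orderOf.mp Q.2) ⟨c, hc⟩
          have hoc : orderOf c = r ^ k := by rw [← hk, ← Subgroup.orderOf_coe]
          have hcop : (orderOf c).Coprime p := by
            rw [hoc]
            exact Nat.Coprime.pow_left k ((Nat.coprime_primes hr hpp).mpr hrp)
          exact (hS2 x c (hPel x hx) hcop).eq
        exact Q.not_dvd_index (hrd.trans (Subgroup.index_dvd_of_le hQle))
    haveI := hPn
    obtain ⟨n, hn⟩ := IsPGroup.iff_card.mp P.2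
    have hcop : Nat.Coprime (Nat.card (P : Subgroup G)) (P : Subgroup G).index := by
      rw [hn]
      exact Nat.Coprime.pow_left n ((Nat.Prime.coprime_iff_not_dvd hpp).mpr hPidx)
    obtain ⟨H, hH⟩ := Subgroup.exists_right_complement'_of_coprime hcop
    have hHcard : (P : Subgroup G).index = Nat.card H := hH.symm.index_eq_card
    have hHcent : ∀ c ∈ H, ∀ x ∈ (P : Subgroup G), Commute x c := by
      intro c hc x hx
      apply hS2 x c (hPel x hx)
      have h1 : orderOf c ∣ Nat.card H := by
        have h2 := orderOf_dvd_natCard (⟨c, hc⟩ : H)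
        rwa [← Subgroup.orderOf_coe] at h2
      rw [← hHcard] at h1
      exact Nat.Coprime.coprime_dvd_left h1
        ((Nat.Prime.coprime_iff_not_dvd hpp).mpr hPidx).symm
    have hHn : H.Normal := by
      constructor
      intro m hm g
      have hg : g ∈ (P : Subgroup G) ⊔ H := hH.sup_eq_top ▸ Subgroup.mem_top g
      obtain ⟨u, hu, k, hk, rfl⟩ := Subgroup.mem_sup_of_normal_left.mp hg
      have h1 : k * m * k⁻¹ ∈ H := H.mul_mem (H.mul_mem hk hm) (H.inv_mem hk)
      have h2 := (hHcent _ h1 u hu).eq
      have h3 : u * k * m * (u * k)⁻¹ = (u * (k * m * k⁻¹)) * u⁻¹ := by group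
      rw [h3, h2]
      simpa using h1
    exact ⟨P, H, hPn, hHn, hH.disjoint.eq_bot, hH.sup_eq_top⟩

end DirectFactor

end Cfsg.Agent.Helper64
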