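import Mathlib
import Cfsg.Agent.Helper64.Basic
import Cfsg.Agent.Helper64.Index

set_option autoImplicit false

namespace Cfsg.Agent.Helper64

variable {G : Type*} [Group G]

/-- Frattini argument: `N_G(PK) = N_G(P) K` for a Sylow subgroup `P` and a normal subgroup `K`. -/
theorem normalizer_sylow_sup_normal [Finite G] {p : ℕ} [Fact p.Prime] (P : Sylow p G)
    (K : Subgroup G) [K.Normal] :
    Subgroup.normalizer (((P : Subgroup G) ⊔ K : Subgroup G) : Set G)
      = Subgroup.normalizer ((P : Subgroup G) : Set G) ⊔ K := by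
  apply le_antisymm
  · intro g hg
    -- g • P ≤ P ⊔ K
    have h1 : ((g • P : Sylow p G) : Subgroup G) ≤ (P : Subgroup G) ⊔ K := by
      rw [sylow_smul_coe]
      intro z hz
      rw [mem_map_conj] at hz
      rw [Subgroup.mem_normalizer_iff] at hg
      have := (hg _).mp (Subgroup.mem_sup_left hz : _ ∈ (P : Subgroup G) ⊔ K)
      have e : g * (g⁻¹ * z * g) * g⁻¹ = z := by group
      rwa [e] at this
    obtain ⟨l, hl, hlP⟩ := exists_mem_conj_eq_of_le P (g • P) le_sup_left h1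
    have h2 : (l⁻¹ * g) • P = P := by
      rw [mul_smul, ← hlP, inv_smul_smul]
    have h3 : l⁻¹ * g ∈ Subgroup.normalizer ((P : Subgroup G) : Set G) :=
      (Sylow.smul_eq_iff_mem_normalizer (P := P)).mp h2
    have hl' : l ∈ Subgroup.normalizer ((P : Subgroup G) : Set G) ⊔ K :=
      (sup_le_sup_right Subgroup.le_normalizer K) hl
    have e : g = l * (l⁻¹ * g) := by group
    rw [e]
    exact Subgroup.mul_mem _ hl' (Subgroup.mem_sup_left h3)
  · apply sup_le
    · have h := Subgroup.normalizer_inf_normalizer_le_normalizer_sup (P : Subgroup G) K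
      rw [Subgroup.normalizer_eq_top (H := K), inf_top_eq] at h
      exact h
    · exact le_sup_right.trans Subgroup.le_normalizer

/-- the number of Sylow subgroups of a quotient -/
theorem card_sylow_quotient [Finite G] {p : ℕ} [Fact p.Prime] (P : Sylow p G)
    (K : Subgroup G) [K.Normal] :
    Nat.card (Sylow p (G ⧸ K)) = (Subgroup.normalizer ((P : Subgroup G) : Set G) ⊔ K).index := by
  have hsurj := QuotientGroup.mk'_surjective K
  have h1 := Sylow.card_eq_index_normalizer (P.mapSurjective hsurj)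
  have h2 : Subgroup.normalizer ((P.mapSurjective hsurj : Sylow p (G ⧸ K)) : Set (G ⧸ K))
      = Subgroup.normalizer
        (((P : Subgroup G).map (QuotientGroup.mk' K) : Subgroup (G ⧸ K)) : Set (G ⧸ K)) := rfl
  rw [h1, h2, ← Subgroup.index_comap_of_surjective _ hsurj,
    Subgroup.comap_normalizer_eq_of_surjective _ hsurj,
    Subgroup.comap_map_eq, QuotientGroup.ker_mk', normalizer_sylow_sup_normal]

/-- `PM ∩ PN = P` for normal subgroups `M`, `N` meeting trivially -/
theorem sylow_sup_inf_sup [Finite G] {p : ℕ} [Fact p.Prime] (P : Sylow p G)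
    (M N : Subgroup G) [M.Normal] [N.Normal] (hMN : M ⊓ N = ⊥) :
    ((P : Subgroup G) ⊔ M) ⊓ ((P : Subgroup G) ⊔ N) = (P : Subgroup G) := by
  have key : ∀ (K : Subgroup G) [K.Normal], ∀ g ∈ (P : Subgroup G) ⊔ K, ∃ k : ℕ, g ^ p ^ k ∈ K := by
    intro K _ g hg
    obtain ⟨x, hx, n, hn, rfl⟩ := Subgroup.mem_sup_of_normal_right.mp hg
    obtain ⟨k, hk⟩ := P.2 ⟨x, hx⟩
    have hk' : x ^ p ^ k = 1 := by simpa using congrArg Subtype.val hk
    refine ⟨k, ?_⟩
    rw [← QuotientGroup.eq_one_iff, QuotientGroup.mk_pow, QuotientGroup.mk_mul,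
      (QuotientGroup.eq_one_iff n).mpr hn, mul_one, ← QuotientGroup.mk_pow, hk']
    rfl
  have hp : IsPGroup p (((P : Subgroup G) ⊔ M) ⊓ ((P : Subgroup G) ⊔ N) : Subgroup G) := by
    rintro ⟨g, hgM, hgN⟩
    obtain ⟨k, hk⟩ := key M g hgM
    obtain ⟨j, hj⟩ := key N (g ^ p ^ k) (Subgroup.pow_mem _ hgN _)
    have h1 : (g ^ p ^ k) ^ p ^ j ∈ M ⊓ N := ⟨Subgroup.pow_mem _ hk _, hj⟩
    rw [hMN, Subgroup.mem_bot, ← pow_mul, ← pow_add] at h1
    exact ⟨k + j, Subtype.ext (by simpa using h1)⟩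
  exact P.3 hp (le_inf le_sup_left le_sup_left)

/-- for normal `M`, `N` with `M ∩ N = 1`: `N_G(P) M ∩ N ≤ N_G(P)` -/
theorem normalizer_sup_inf_le [Finite G] {p : ℕ} [Fact p.Prime] (P : Sylow p G)
    (M N : Subgroup G) [M.Normal] [N.Normal] (hMN : M ⊓ N = ⊥) :
    (Subgroup.normalizer ((P : Subgroup G) : Set G) ⊔ M) ⊓ N
      ≤ Subgroup.normalizer ((P : Subgroup G) : Set G) := by
  rintro n ⟨hn1, hn2⟩
  -- n normalizes P ⊔ M and P ⊔ N
  have h1 : n ∈ Subgroup.normalizer (((P : Subgroup G) ⊔ M : Subgroup G) : Set G) := by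
    rw [normalizer_sylow_sup_normal]; exact hn1
  have h2 : n ∈ Subgroup.normalizer (((P : Subgroup G) ⊔ N : Subgroup G) : Set G) :=
    Subgroup.le_normalizer (Subgroup.mem_sup_right hn2)
  have h3 := Subgroup.inf_normalizer_le_normalizer_inf ⟨h1, h2⟩
  rwa [sylow_sup_inf_sup P M N hMN] at h3

end Cfsg.Agent.Helper64
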