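-- helper64: piece G3A of CALL S4627 (owner helper97): a Sylow 2-subgroup of the similitude group
-- of x^2 + y^2 in GL_2(q), q ≡ 3 (mod 4): squares lie in the commutator subgroup, determinants
-- are ±1, and there is an involution of determinant -1.
import Mathlib

set_option autoImplicit false

namespace Cfsg.Agent.Helper64.GSylG3A

open Matrix
open scoped Pointwise commutatorElement

variable {F : Type*} [Field F]

/-- The matrix `R(a,b)`. -/
def Rm (a b : F) : Matrix (Fin 2) (Fin 2) F := !![a, -b; b, a]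

/-- The matrix `Sg(a,b)`. -/
def Sm (a b : F) : Matrix (Fin 2) (Fin 2) F := !![a, b; b, -a]

theorem Rm_mul_Rm (a b c d : F) : Rm a b * Rm c d = Rm (a * c - b * d) (a * d + b * c) := by
  unfold Rm
  ext i j
  fin_cases i <;> fin_cases j <;> simp [Matrix.mul_apply, Fin.sum_univ_two] <;> ring

theorem Rm_mul_Sm (a b c d : F) : Rm a b * Sm c d = Sm (a * c - b * d) (a * d + b * c) := by
  unfold Rm Sm
  ext i j
  fin_cases i <;> fin_cases j <;> simp [Matrix.mul_apply, Fin.sum_univ_two] <;> ring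

theorem Sm_mul_Rm (a b c d : F) : Sm a b * Rm c d = Sm (a * c + b * d) (b * c - a * d) := by
  unfold Rm Sm
  ext i j
  fin_cases i <;> fin_cases j <;> simp [Matrix.mul_apply, Fin.sum_univ_two] <;> ring

theorem Sm_mul_Sm (a b c d : F) : Sm a b * Sm c d = Rm (a * c + b * d) (b * c - a * d) := by
  unfold Rm Sm
  ext i j
  fin_cases i <;> fin_cases j <;> simp [Matrix.mul_apply, Fin.sum_univ_two] <;> ring

theorem Rm_one : Rm (1 : F) 0 = 1 := by
  unfold Rm
  ext i j
  fin_cases i <;> fin_cases j <;> simp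

theorem Rm_neg_one : Rm (-1 : F) 0 = -1 := by
  unfold Rm
  ext i j
  fin_cases i <;> fin_cases j <;> simp

theorem det_Rm (a b : F) : (Rm a b).det = a * a + b * b := by
  unfold Rm
  rw [Matrix.det_fin_two_of]
  ring

theorem det_Sm (a b : F) : (Sm a b).det = -(a * a + b * b) := by
  unfold Sm
  rw [Matrix.det_fin_two_of]
  ring

theorem Rm_inj {a b c d : F} (h : Rm a b = Rm c d) : a = c ∧ b = d := by
  have h0 := congrFun (congrFun h 0) 0
  have h1 := congrFun (congrFun h 1) 0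
  simp [Rm] at h0 h1
  exact ⟨h0, h1⟩

/-- Shape `R`. -/
def IsR (g : GL (Fin 2) F) : Prop := ∃ a b : F, (g : Matrix (Fin 2) (Fin 2) F) = Rm a b

/-- Shape `Sg`. -/
def IsS (g : GL (Fin 2) F) : Prop := ∃ a b : F, (g : Matrix (Fin 2) (Fin 2) F) = Sm a b

theorem isR_one : IsR (1 : GL (Fin 2) F) := ⟨1, 0, by rw [Rm_one]; rfl⟩

theorem IsR.mul {g h : GL (Fin 2) F} (hg : IsR g) (hh : IsR h) : IsR (g * h) := by
  obtain ⟨a, b, hg⟩ := hg
  obtain ⟨c, d, hh⟩ := hh
  exact ⟨_, _, by rw [Units.val_mul, hg, hh, Rm_mul_Rm]⟩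

theorem IsR.mul_S {g h : GL (Fin 2) F} (hg : IsR g) (hh : IsS h) : IsS (g * h) := by
  obtain ⟨a, b, hg⟩ := hg
  obtain ⟨c, d, hh⟩ := hh
  exact ⟨_, _, by rw [Units.val_mul, hg, hh, Rm_mul_Sm]⟩

theorem IsS.mul_R {g h : GL (Fin 2) F} (hg : IsS g) (hh : IsR h) : IsS (g * h) := by
  obtain ⟨a, b, hg⟩ := hg
  obtain ⟨c, d, hh⟩ := hh
  exact ⟨_, _, by rw [Units.val_mul, hg, hh, Sm_mul_Rm]⟩

theorem IsS.mul {g h : GL (Fin 2) F} (hg : IsS g) (hh : IsS h) : IsR (g * h) := by
  obtain ⟨a, b, hg⟩ := hg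
  obtain ⟨c, d, hh⟩ := hh
  exact ⟨_, _, by rw [Units.val_mul, hg, hh, Sm_mul_Sm]⟩

theorem IsR.pow {g : GL (Fin 2) F} (hg : IsR g) (n : ℕ) : IsR (g ^ n) := by
  induction n with
  | zero => rw [pow_zero]; exact isR_one
  | succ n ih => rw [pow_succ]; exact ih.mul hg

/-- The two shapes exclude each other when `2 ≠ 0`. -/
theorem not_isR_and_isS (h2 : (2 : F) ≠ 0) {g : GL (Fin 2) F} (hR : IsR g) (hS : IsS g) : False := by
  obtain ⟨a, b, hg⟩ := hR
  obtain ⟨c, d, hg'⟩ := hS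
  have h := hg.symm.trans hg'
  have h00 := congrFun (congrFun h 0) 0
  have h01 := congrFun (congrFun h 0) 1
  have h10 := congrFun (congrFun h 1) 0
  have h11 := congrFun (congrFun h 1) 1
  simp [Rm, Sm] at h00 h01 h10 h11
  have ha : a = 0 := by
    have : (2 : F) * a = 0 := by linear_combination h00 + h11
    rcases mul_eq_zero.mp this with h | h
    · exact absurd h h2
    · exact h
  have hb : b = 0 := by
    have : (2 : F) * b = 0 := by linear_combination h10 - h01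
    rcases mul_eq_zero.mp this with h | h
    · exact absurd h h2
    · exact h
  have hz : (g : Matrix (Fin 2) (Fin 2) F) = 0 := by
    rw [hg, ha, hb]
    unfold Rm
    ext i j
    fin_cases i <;> fin_cases j <;> simp
  have h1 : (g : Matrix (Fin 2) (Fin 2) F) * ((g⁻¹ : GL (Fin 2) F) : Matrix (Fin 2) (Fin 2) F) = 1 :=
    Units.mul_inv g
  rw [hz, zero_mul] at h1
  have := congrFun (congrFun h1 0) 0
  simp at this

/-- An `R`-shaped 2-element different from 1 has `-1` among its powers. -/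
theorem exists_pow_eq_neg_one (h2 : (2 : F) ≠ 0) (hns : ∀ b : F, b * b ≠ -1) :
    ∀ (n : ℕ) (y : GL (Fin 2) F), IsR y → y ^ 2 ^ n = 1 → y ≠ 1 →
      ∃ j : ℕ, ((y ^ j : GL (Fin 2) F) : Matrix (Fin 2) (Fin 2) F) = -1 := by
  intro n
  induction n with
  | zero =>
    intro y _ h1 hne
    rw [pow_zero, pow_one] at h1
    exact absurd h1 hne
  | succ n ih =>
    intro y hR h1 hne
    by_cases hy2 : y ^ 2 = 1
    · obtain ⟨e, f, hy⟩ := hR
      have hv : Rm e f * Rm e f = 1 := by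
        rw [← hy, ← Units.val_mul, ← pow_two, hy2]
        rfl
      rw [Rm_mul_Rm, ← Rm_one] at hv
      obtain ⟨hv1, hv2⟩ := Rm_inj hv
      have hef : e * f = 0 := by
        have : (2 : F) * (e * f) = 0 := by linear_combination hv2
        rcases mul_eq_zero.mp this with h | h
        · exact absurd h h2
        · exact h
      rcases mul_eq_zero.mp hef with he | hf
      · exfalso
        apply hns f
        rw [he] at hv1
        linear_combination -hv1
      · rw [hf] at hv1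
        have hfac : (e - 1) * (e + 1) = 0 := by linear_combination hv1
        rcases mul_eq_zero.mp hfac with h | h
        · exfalso
          apply hne
          apply Units.ext
          rw [hy, hf, sub_eq_zero.mp h, Rm_one]
          rfl
        · refine ⟨1, ?_⟩
          rw [pow_one, hy, hf, eq_neg_of_add_eq_zero_left h, Rm_neg_one]
    · obtain ⟨j, hj⟩ := ih (y ^ 2) (hR.pow 2) (by rw [← pow_mul, ← pow_succ']; exact h1) hy2
      exact ⟨2 * j, by rw [pow_mul]; exact hj⟩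

theorem g3_props [Fintype F] (hq : 4 ∣ Fintype.card F + 1) (M : Subgroup (GL (Fin 2) F))
    (hM : ∀ g : GL (Fin 2) F, g ∈ M ↔ ∃ a b : F,
      (g : Matrix (Fin 2) (Fin 2) F) = !![a, -b; b, a] ∨
        (g : Matrix (Fin 2) (Fin 2) F) = !![a, b; b, -a])
    (hcard : Nat.card M = 2 * (Fintype.card F ^ 2 - 1)) (P : Sylow 2 M) :
    (∀ s ∈ (P : Subgroup M).map M.subtype,
        s ^ 2 ∈ ⁅(P : Subgroup M).map M.subtype, (P : Subgroup M).map M.subtype⁆) ∧
      (∀ s ∈ (P : Subgroup M).map M.subtype, (s : Matrix (Fin 2) (Fin 2) F).det = 1 ∨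
        (s : Matrix (Fin 2) (Fin 2) F).det = -1) ∧
      (∃ s₀ ∈ (P : Subgroup M).map M.subtype,
        (s₀ : Matrix (Fin 2) (Fin 2) F).det = -1 ∧ s₀ ^ 2 = 1) := by
  classical
  haveI : Fact (Nat.Prime 2) := ⟨Nat.prime_two⟩
  have hq3 : Fintype.card F % 4 = 3 := by omega
  have hns : ¬ IsSquare (-1 : F) := by
    rw [FiniteField.isSquare_neg_one_iff]
    simp [hq3]
  have h2 : (2 : F) ≠ 0 := by
    intro h
    apply hns
    refine ⟨1, ?_⟩
    have h' : (1 : F) + 1 = 0 := by rw [one_add_one_eq_two]; exact h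
    linear_combination -h'
  have hnsq : ∀ b : F, b * b ≠ -1 := fun b hb => hns ⟨b, hb.symm⟩
  have hMem : ∀ g : GL (Fin 2) F, g ∈ M ↔ IsR g ∨ IsS g := by
    intro g
    rw [hM g]
    constructor
    · rintro ⟨a, b, h | h⟩
      · exact Or.inl ⟨a, b, h⟩
      · exact Or.inr ⟨a, b, h⟩
    · rintro (⟨a, b, h⟩ | ⟨a, b, h⟩)
      · exact ⟨a, b, Or.inl h⟩
      · exact ⟨a, b, Or.inr h⟩
  -- shape of inverses
  have hRinv : ∀ g ∈ M, IsR g → IsR g⁻¹ := by
    intro g hg hR
    rcases (hMem g⁻¹).mp (M.inv_mem hg) with h | h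
    · exact h
    · exfalso
      have h1 := hR.mul_S h
      rw [mul_inv_cancel] at h1
      exact not_isR_and_isS h2 isR_one h1
  have hSinv : ∀ g ∈ M, IsS g → IsS g⁻¹ := by
    intro g hg hS
    rcases (hMem g⁻¹).mp (M.inv_mem hg) with h | h
    · exfalso
      have h1 := hS.mul_R h
      rw [mul_inv_cancel] at h1
      exact not_isR_and_isS h2 isR_one h1
    · exact h
  -- conjugation by elements of `M` keeps the shape
  have hconjR : ∀ g ∈ M, ∀ x, IsR x → IsR (g * x * g⁻¹) := by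
    intro g hg x hx
    rcases (hMem g).mp hg with h | h
    · exact (h.mul hx).mul (hRinv g hg h)
    · exact (h.mul_R hx).mul (hSinv g hg h)
  have hconjS : ∀ g ∈ M, ∀ x, IsS x → IsS (g * x * g⁻¹) := by
    intro g hg x hx
    rcases (hMem g).mp hg with h | h
    · exact (h.mul_S hx).mul_R (hRinv g hg h)
    · exact (h.mul hx).mul_S (hSinv g hg h)
  have hdetconj : ∀ g x : GL (Fin 2) F, ((g * x * g⁻¹ : GL (Fin 2) F) : Matrix (Fin 2) (Fin 2) F).det
      = (x : Matrix (Fin 2) (Fin 2) F).det := by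
    intro g x
    rw [Units.val_mul, Units.val_mul, Matrix.det_units_conj]
  -- elements of `Pb`
  have hPbM : ∀ s ∈ (P : Subgroup M).map M.subtype, s ∈ M := by
    rintro s ⟨p, -, rfl⟩
    exact p.2
  have hPb2 : ∀ s ∈ (P : Subgroup M).map M.subtype, ∃ k : ℕ, s ^ 2 ^ k = 1 := by
    rintro s ⟨p, hp, rfl⟩
    obtain ⟨k, hk⟩ := P.isPGroup' ⟨p, hp⟩
    refine ⟨k, ?_⟩
    have h1 : p ^ 2 ^ k = 1 := by
      have := congrArg (fun x : (P : Subgroup M) => (x : M)) hk
      simpa using this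
    have h3 := congrArg (fun x : M => (x : GL (Fin 2) F)) h1
    simpa using h3
  -- conjugating 2-elements of `M` into `Pb`
  have hconj : ∀ x ∈ M, (∃ k : ℕ, x ^ 2 ^ k = 1) →
      ∃ g ∈ M, g * x * g⁻¹ ∈ (P : Subgroup M).map M.subtype := by
    intro x hx ⟨k, hk⟩
    have hxk : (⟨x, hx⟩ : M) ^ 2 ^ k = 1 := by
      apply Subtype.ext
      simpa using hk
    have hxp : IsPGroup 2 (Subgroup.zpowers (⟨x, hx⟩ : M)) := by
      rintro ⟨y, hy⟩
      obtain ⟨n, rfl⟩ := Subgroup.mem_zpowers_iff.mp hy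
      refine ⟨k, ?_⟩
      apply Subtype.ext
      show ((⟨x, hx⟩ : M) ^ n) ^ 2 ^ k = 1
      rw [← zpow_natCast, ← _root_.zpow_mul, mul_comm, _root_.zpow_mul, zpow_natCast, hxk, _root_.one_zpow]
    obtain ⟨Q, hQ⟩ := hxp.exists_le_sylow
    obtain ⟨g, hg⟩ := MulAction.exists_smul_eq M Q P
    refine ⟨(g : GL (Fin 2) F), g.2, ?_⟩
    have hxQ : (⟨x, hx⟩ : M) ∈ (Q : Subgroup M) := hQ (Subgroup.mem_zpowers _)
    have h1 : MulAut.conj g • (⟨x, hx⟩ : M) ∈ MulAut.conj g • (Q : Subgroup M) :=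
      Subgroup.smul_mem_pointwise_smul _ _ _ hxQ
    rw [← Sylow.coe_subgroup_smul, hg] at h1
    refine ⟨MulAut.conj g • (⟨x, hx⟩ : M), h1, ?_⟩
    simp [MulAut.smul_def]
  -- (ii) determinants
  have hdet : ∀ s ∈ (P : Subgroup M).map M.subtype, (s : Matrix (Fin 2) (Fin 2) F).det = 1 ∨
      (s : Matrix (Fin 2) (Fin 2) F).det = -1 := by
    intro s hs
    obtain ⟨k, hk⟩ := hPb2 s hs
    set d := (s : Matrix (Fin 2) (Fin 2) F).det with hd
    have hd0 : d ≠ 0 := by
      intro h0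
      have h1 : (s : Matrix (Fin 2) (Fin 2) F) * ((s⁻¹ : GL (Fin 2) F) : Matrix (Fin 2) (Fin 2) F) = 1 :=
        Units.mul_inv s
      have h3 := congrArg Matrix.det h1
      rw [Matrix.det_mul, ← hd, h0, zero_mul, Matrix.det_one] at h3
      exact zero_ne_one h3
    have hdk : d ^ 2 ^ k = 1 := by
      have h1 := congrArg (fun x : GL (Fin 2) F => (x : Matrix (Fin 2) (Fin 2) F).det) hk
      simpa [Matrix.det_pow] using h1
    have hdq : d ^ (Fintype.card F - 1) = 1 := FiniteField.pow_card_sub_one_eq_one d hd0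
    obtain ⟨j, hj⟩ := hq
    have hj1 : 1 ≤ j := by omega
    have hq1 : Fintype.card F - 1 = 2 * (2 * j - 1) := by omega
    have he1 : (d ^ 2) ^ (2 * j - 1) = 1 := by rw [← pow_mul, ← hq1, hdq]
    have he2 : (d ^ 2) ^ 2 ^ k = 1 := by rw [← pow_mul, mul_comm, pow_mul, hdk, one_pow]
    have ho1 : orderOf (d ^ 2) ∣ 2 * j - 1 := orderOf_dvd_of_pow_eq_one he1
    have ho2 : orderOf (d ^ 2) ∣ 2 ^ k := orderOf_dvd_of_pow_eq_one he2
    have hcop : Nat.Coprime (2 * j - 1) (2 ^ k) := by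
      apply Nat.Coprime.pow_right
      rw [Nat.coprime_comm, Nat.coprime_two_left]
      exact ⟨j - 1, by omega⟩
    have ho : orderOf (d ^ 2) = 1 := Nat.eq_one_of_dvd_coprimes hcop ho1 ho2
    have hsq : d ^ 2 = 1 := orderOf_eq_one_iff.mp ho
    have hfac : (d - 1) * (d + 1) = 0 := by linear_combination hsq
    rcases mul_eq_zero.mp hfac with h | h
    · exact Or.inl (sub_eq_zero.mp h)
    · exact Or.inr (eq_neg_of_add_eq_zero_left h)
  -- (iii) an involution of determinant -1 in `Pb`, of shape `Sg`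
  have hsig : Sm (1 : F) 0 * Sm (1 : F) 0 = 1 := by
    rw [Sm_mul_Sm]
    simp [Rm_one]
  let σ : GL (Fin 2) F := ⟨Sm 1 0, Sm 1 0, hsig, hsig⟩
  have hσS : IsS σ := ⟨1, 0, rfl⟩
  have hσM : σ ∈ M := (hMem σ).mpr (Or.inr hσS)
  have hσ2 : σ ^ 2 = 1 := by
    apply Units.ext
    rw [pow_two, Units.val_mul]
    exact hsig
  have hσdet : (σ : Matrix (Fin 2) (Fin 2) F).det = -1 := by
    show (Sm (1 : F) 0).det = -1
    rw [det_Sm]
    ring
  obtain ⟨g₀, hg₀, hs₀⟩ := hconj σ hσM ⟨1, by rw [pow_one]; exact hσ2⟩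
  set s₀ := g₀ * σ * g₀⁻¹ with hs₀def
  have hs₀S : IsS s₀ := hconjS g₀ hg₀ σ hσS
  have hs₀det : (s₀ : Matrix (Fin 2) (Fin 2) F).det = -1 := by rw [hs₀def, hdetconj, hσdet]
  have hs₀2 : s₀ ^ 2 = 1 := by
    rw [hs₀def, conj_pow, hσ2, mul_one, mul_inv_cancel]
  refine ⟨?_, hdet, ⟨s₀, hs₀, hs₀det, hs₀2⟩⟩
  -- (i)
  obtain ⟨c₀, d₀, hs₀v⟩ := hs₀S
  -- the element `-1`
  let negOne : GL (Fin 2) F := ⟨-1, -1, by simp, by simp⟩
  -- key identity: conjugating shape `R` by `s₀`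
  have hkey : ∀ (x : GL (Fin 2) F) (a b : F), (x : Matrix (Fin 2) (Fin 2) F) = Rm a b →
      ((s₀ * x * s₀⁻¹ : GL (Fin 2) F) : Matrix (Fin 2) (Fin 2) F) = Rm a (-b) := by
    intro x a b hx
    have h1 : ((s₀ * x : GL (Fin 2) F) : Matrix (Fin 2) (Fin 2) F) = Rm a (-b) * (s₀ : Matrix (Fin 2) (Fin 2) F) := by
      rw [Units.val_mul, hx, hs₀v, Sm_mul_Rm, Rm_mul_Sm]
      have e1 : c₀ * a + d₀ * b = a * c₀ - -b * d₀ := by ring
      have e2 : d₀ * a - c₀ * b = a * d₀ + -b * c₀ := by ring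
      rw [e1, e2]
    rw [Units.val_mul, h1, Matrix.mul_assoc, Units.mul_inv, Matrix.mul_one]
  -- `-1` lies in the commutator subgroup
  have hneg : negOne ∈ ⁅(P : Subgroup M).map M.subtype, (P : Subgroup M).map M.subtype⁆ := by
    -- an element `c₁` of `Pb` of shape `R` and determinant `-1`
    obtain ⟨a, b, hab⟩ : ∃ a b : F, a ^ 2 + b ^ 2 = -1 := by
      obtain ⟨a, b, hab⟩ := FiniteField.exists_root_sum_quadratic (R := F)
        (f := Polynomial.X ^ 2) (g := Polynomial.X ^ 2 - Polynomial.C (-1))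
        (Polynomial.degree_X_pow 2) (Polynomial.degree_X_pow_sub_C (by decide) _)
        (by omega)
      refine ⟨a, b, ?_⟩
      simp at hab
      linear_combination hab
    have hw1 : Rm a b * Rm (-a) b = 1 := by
      rw [Rm_mul_Rm, ← Rm_one]
      have e1 : a * -a - b * b = 1 := by linear_combination -hab
      have e2 : a * b + b * -a = 0 := by ring
      rw [e1, e2]
    have hw2 : Rm (-a) b * Rm a b = 1 := by
      rw [Rm_mul_Rm, ← Rm_one]
      have e1 : -a * a - b * b = 1 := by linear_combination -hab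
      have e2 : -a * b + b * a = 0 := by ring
      rw [e1, e2]
    let w : GL (Fin 2) F := ⟨Rm a b, Rm (-a) b, hw1, hw2⟩
    have hwR : IsR w := ⟨a, b, rfl⟩
    have hwM : w ∈ M := (hMem w).mpr (Or.inl hwR)
    have hwdet : (w : Matrix (Fin 2) (Fin 2) F).det = -1 := by
      show (Rm a b).det = -1
      rw [det_Rm]
      linear_combination hab
    have hM0 : Nat.card M ≠ 0 := Nat.card_pos.ne'
    obtain ⟨k, r, hr, hkr⟩ := Nat.exists_eq_two_pow_mul_odd hM0
    have hwr2 : (w ^ r) ^ 2 ^ k = 1 := by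
      have h1 : (⟨w, hwM⟩ : M) ^ Nat.card M = 1 := pow_card_eq_one'
      have h3 := congrArg (fun x : M => (x : GL (Fin 2) F)) h1
      simp only [SubmonoidClass.coe_pow, OneMemClass.coe_one] at h3
      rw [← pow_mul, mul_comm, ← hkr]
      exact h3
    have hwrdet : ((w ^ r : GL (Fin 2) F) : Matrix (Fin 2) (Fin 2) F).det = -1 := by
      rw [Units.val_pow_eq_pow_val, Matrix.det_pow, hwdet, hr.neg_one_pow]
    obtain ⟨g₁, hg₁, hc₁⟩ := hconj (w ^ r) (M.pow_mem hwM r) ⟨k, hwr2⟩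
    set c₁ := g₁ * w ^ r * g₁⁻¹ with hc₁def
    have hc₁R : IsR c₁ := hconjR g₁ hg₁ _ (hwR.pow r)
    have hc₁det : (c₁ : Matrix (Fin 2) (Fin 2) F).det = -1 := by rw [hc₁def, hdetconj, hwrdet]
    obtain ⟨e, f, hc₁v⟩ := hc₁R
    have hef : e * e + f * f = -1 := by rw [← det_Rm, ← hc₁v, hc₁det]
    -- y = ⁅s₀, c₁⁆
    have hy : ⁅s₀, c₁⁆ ∈ ⁅(P : Subgroup M).map M.subtype, (P : Subgroup M).map M.subtype⁆ :=
      Subgroup.commutator_mem_commutator hs₀ hc₁
    have hyv : ((⁅s₀, c₁⁆ : GL (Fin 2) F) : Matrix (Fin 2) (Fin 2) F) * Rm e f = Rm e (-f) := by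
      rw [commutatorElement_def, Units.val_mul, ← hc₁v, Matrix.mul_assoc, Units.inv_mul, Matrix.mul_one,
        hkey c₁ e f hc₁v]
    -- shape of y
    have hyR : IsR ⁅s₀, c₁⁆ := by
      rw [commutatorElement_def]
      have hR1 : IsR (s₀ * c₁ * s₀⁻¹) := ⟨e, -f, hkey c₁ e f hc₁v⟩
      exact hR1.mul (hRinv c₁ (hPbM c₁ hc₁) ⟨e, f, hc₁v⟩)
    have hy1 : ⁅s₀, c₁⁆ ≠ 1 := by
      intro h1
      rw [h1, Units.val_one, Matrix.one_mul] at hyv
      have hf := (Rm_inj hyv).2
      have hf0 : f = 0 := by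
        have : (2 : F) * f = 0 := by linear_combination hf
        rcases mul_eq_zero.mp this with h | h
        · exact absurd h h2
        · exact h
      rw [hf0] at hef
      exact hnsq e (by linear_combination hef)
    have hyPb : ⁅s₀, c₁⁆ ∈ (P : Subgroup M).map M.subtype := by
      rw [commutatorElement_def]
      exact Subgroup.mul_mem _ (Subgroup.mul_mem _ (Subgroup.mul_mem _ hs₀ hc₁)
        (Subgroup.inv_mem _ hs₀)) (Subgroup.inv_mem _ hc₁)
    obtain ⟨n, hn⟩ := hPb2 _ hyPb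
    obtain ⟨j, hj⟩ := exists_pow_eq_neg_one h2 hnsq n _ hyR hn hy1
    have hnegeq : negOne = ⁅s₀, c₁⁆ ^ j := by
      apply Units.ext
      rw [hj]
    rw [hnegeq]
    exact Subgroup.pow_mem _ hy j
  intro s hs
  have hc : ⁅s₀, s⁆ ∈ ⁅(P : Subgroup M).map M.subtype, (P : Subgroup M).map M.subtype⁆ :=
    Subgroup.commutator_mem_commutator hs₀ hs
  rcases (hMem s).mp (hPbM s hs) with ⟨a, b, hsv⟩ | ⟨a, b, hsv⟩
  · -- shape `R`
    have hcs : ⁅s₀, s⁆ * s ^ 2 = s₀ * s * s₀⁻¹ * s := by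
      rw [commutatorElement_def]
      group
    have hv : ((⁅s₀, s⁆ * s ^ 2 : GL (Fin 2) F) : Matrix (Fin 2) (Fin 2) F) = Rm (a * a + b * b) 0 := by
      rw [hcs, Units.val_mul, hkey s a b hsv, hsv, Rm_mul_Rm]
      have e1 : a * a - -b * b = a * a + b * b := by ring
      have e2 : a * b + -b * a = 0 := by ring
      rw [e1, e2]
    have hds : (s : Matrix (Fin 2) (Fin 2) F).det = a * a + b * b := by rw [hsv, det_Rm]
    rcases hdet s hs with h | h
    · have h1 : ⁅s₀, s⁆ * s ^ 2 = 1 := by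
        apply Units.ext
        rw [hv, ← hds, h, Rm_one]
        rfl
      have h3 : s ^ 2 = ⁅s₀, s⁆⁻¹ := (eq_inv_of_mul_eq_one_right h1)
      rw [h3]
      exact Subgroup.inv_mem _ hc
    · have h1 : ⁅s₀, s⁆ * s ^ 2 = negOne := by
        apply Units.ext
        rw [hv, ← hds, h, Rm_neg_one]
      have h3 : s ^ 2 = ⁅s₀, s⁆⁻¹ * negOne := by
        rw [← h1, inv_mul_cancel_left]
      rw [h3]
      exact Subgroup.mul_mem _ (Subgroup.inv_mem _ hc) hneg
  · -- shape `Sg`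
    have hv : ((s ^ 2 : GL (Fin 2) F) : Matrix (Fin 2) (Fin 2) F) = Rm (a * a + b * b) 0 := by
      rw [pow_two, Units.val_mul, hsv, Sm_mul_Sm]
      have e2 : b * a - a * b = 0 := by ring
      rw [e2]
    have hds : (s : Matrix (Fin 2) (Fin 2) F).det = -(a * a + b * b) := by rw [hsv, det_Sm]
    rcases hdet s hs with h | h
    · have h1 : s ^ 2 = negOne := by
        apply Units.ext
        have h4 : a * a + b * b = -1 := by
          rw [hds] at h
          linear_combination -h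
        rw [hv, h4, Rm_neg_one]
      rw [h1]
      exact hneg
    · have h1 : s ^ 2 = 1 := by
        apply Units.ext
        have h4 : a * a + b * b = 1 := by
          rw [hds] at h
          linear_combination -h
        rw [hv, h4, Rm_one]
        rfl
      rw [h1]
      exact Subgroup.one_mem _

end Cfsg.Agent.Helper64.GSylG3A
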