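import Mathlib
import Cfsg.Agent.Helper90.MDSLDefs
import Cfsg.Agent.Helper60.SLFisher
import Cfsg.Agent.Helper20.MDMSCARD
import Cfsg.Agent.Helper66.MDMSNORM
import Cfsg.Agent.Helper91.MDAVG
import Cfsg.Agent.Helper67.MDMSLIN
import Cfsg.Agent.Helper67.MDASM2
import Cfsg.Agent.Helper67.MDASM3
import Cfsg.Agent.Helper4.MDE

/-!
# CALL S2332, PIECE ASM5 (helper64): `asm_two_level`
-/

set_option autoImplicit false
set_option linter.unusedSectionVars false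

namespace Cfsg.Agent.Helper64

open Module Cfsg.Agent.Helper90.MD Cfsg.Agent.Helper60.MinIdx

section
variable {F V0 : Type*} [Field F] [Finite F] [AddCommGroup V0] [Module F V0] [Module.Finite F V0]
variable {W : Type*} [AddCommGroup W] [Module ℂ W] [FiniteDimensional ℂ W]

theorem mdasm5_li12 {φ ψ ψ' : Dual F V0} (hli : LinearIndependent F ![φ, ψ, ψ']) :
    LinearIndependent F ![φ, ψ] := by
  have hinj : Function.Injective (![0, 1] : Fin 2 → Fin 3) := by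
    intro i j hij
    fin_cases i <;> fin_cases j <;> simp at hij ⊢
  have h := hli.comp _ hinj
  have e : (![φ, ψ, ψ'] : Fin 3 → Dual F V0) ∘ (![0, 1] : Fin 2 → Fin 3) = ![φ, ψ] := by
    funext i; fin_cases i <;> rfl
  rwa [e] at h

theorem mdasm5_li13 {φ ψ ψ' : Dual F V0} (hli : LinearIndependent F ![φ, ψ, ψ']) :
    LinearIndependent F ![φ, ψ'] := by
  have hinj : Function.Injective (![0, 2] : Fin 2 → Fin 3) := by
    intro i j hij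
    fin_cases i <;> fin_cases j <;> simp at hij ⊢
  have h := hli.comp _ hinj
  have e : (![φ, ψ, ψ'] : Fin 3 → Dual F V0) ∘ (![0, 2] : Fin 2 → Fin 3) = ![φ, ψ'] := by
    funext i; fin_cases i <;> rfl
  rwa [e] at h

theorem mdasm5_li23 {φ ψ ψ' : Dual F V0} (hli : LinearIndependent F ![φ, ψ, ψ']) :
    LinearIndependent F ![ψ, ψ'] := by
  have hinj : Function.Injective (![1, 2] : Fin 2 → Fin 3) := by
    intro i j hij
    fin_cases i <;> fin_cases j <;> simp at hij ⊢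
  have h := hli.comp _ hinj
  have e : (![φ, ψ, ψ'] : Fin 3 → Dual F V0) ∘ (![1, 2] : Fin 2 → Fin 3) = ![ψ, ψ'] := by
    funext i; fin_cases i <;> rfl
  rwa [e] at h

/-- PIECE ASM5 -/
theorem asm_two_level (hn : 4 ≤ finrank F V0)
    (ρ : Representation ℂ (SpecialLinearGroup F V0) W) (a : ℕ)
    (hd : finrank ℂ W = a + Nat.card F ^ (finrank F V0 - 1) - 1)
    (hχ : ∀ (f : Dual F V0) (c : V0), f c = 0 → f ≠ 0 → c ≠ 0 →
      ρ.character (tv f c) = (a : ℂ) - 1)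
    (H1 : ∀ (φ ψ : Dual F V0) (b : V0), LinearIndependent F ![φ, ψ] → φ b = 0 → ψ b = 0 →
      b ≠ 0 → PropT ⊤ (Qsub φ) (bsub (Qsub φ) (tv ψ b)) (tv ψ b))
    (H2 : ∀ (φ ψ ψ' : Dual F V0) (b : V0), LinearIndependent F ![φ, ψ, ψ'] → φ b = 0 →
      ψ b = 0 → ψ' b = 0 → b ≠ 0 →
      PropT (normSub (Qsub φ)) (Xsub φ ψ) (csub (Xsub φ ψ) (tv ψ' b)) (tv ψ' b))
    (H3 : ∀ (φ ψ ψ' : Dual F V0) (b : V0), LinearIndependent F ![φ, ψ, ψ'] → φ b = 0 →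
      ψ b = 0 → ψ' b = 0 → b ≠ 0 →
      ∀ x ∈ csub (Xsub φ ψ) (tv ψ' b), x ∉ bsub (Xsub φ ψ) (tv ψ' b) →
        x ∈ Qsub ψ ∧ x ∉ bsub (Qsub ψ) (tv ψ' b) ∧
        cent (Qsub φ) (x * tv ψ' b) = Nat.card F ^ (finrank F V0 - 3) ∧
        PropT ⊤ (Qsub φ) (bsub (Qsub φ) (x * tv ψ' b)) (x * tv ψ' b)) :
    Nat.card F ^ (finrank F V0 - 2) + Nat.card F ^ (finrank F V0 - 3) ≤ a + 2 := by
  classical
  have hV0 : Finite V0 := Module.finite_of_finite F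
  obtain ⟨φ, ψ, ψ', hli⟩ := Helper67.exists_cov3 (F := F) (V0 := V0) hn
  have hli12 := mdasm5_li12 hli
  have hli13 := mdasm5_li13 hli
  have hli23 := mdasm5_li23 hli
  have hφ : φ ≠ 0 := by
    have h0 := hli12.ne_zero 0
    simpa using h0
  have hψ : ψ ≠ 0 := by
    have h0 := hli12.ne_zero 1
    simpa using h0
  have hψ' : ψ' ≠ 0 := by
    have h0 := hli13.ne_zero 1
    simpa using h0
  obtain ⟨-, hP1, hP1one⟩ := Helper67.asm_level1 ρ a hd hχ hφ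
  obtain ⟨Q, hQ⟩ : ∃ Q : ℕ, Q = Nat.card F ^ (finrank F V0 - 2) := ⟨_, rfl⟩
  obtain ⟨R, hR⟩ : ∃ R : ℕ, R = Nat.card F ^ (finrank F V0 - 3) := ⟨_, rfl⟩
  have hq : 2 ≤ Nat.card F := Finite.one_lt_card
  have hQpos : 0 < Q := by
    rw [hQ]; exact Nat.pow_pos (by omega)
  have hRpos : 0 < R := by
    rw [hR]; exact Nat.pow_pos (by omega)
  have hQ0 : (Q : ℂ) ≠ 0 := Nat.cast_ne_zero.mpr hQpos.ne'
  have hR0 : (R : ℂ) ≠ 0 := Nat.cast_ne_zero.mpr hRpos.ne'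
  -- level 1 on `X`
  have hτ' : ∀ x ∈ Xsub φ ψ, x ≠ 1 → ptr ρ (LinearMap.id ∘ₗ avg ρ (Qsub φ)) x
      = (a : ℂ) - (Q : ℂ) := by
    rintro x ⟨c, hφc, hψc, rfl⟩ hx1
    have hc0 : c ≠ 0 := by
      rintro rfl
      exact hx1 (tv_zero_right ψ)
    rw [hQ]
    exact Helper67.md_ptr_level1_xsub ρ a hd hχ H1 hli12 hφc hψc hc0
  have hXcard : Nat.card (Xsub φ ψ) = Q := by rw [hQ]; exact Helper20.xsub_card hli12
  have hYcard : Nat.card (Ysub φ ψ ψ') = R := by rw [hR]; exact Helper20.ysub_card hli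
  have hm : MultOne ρ (LinearMap.id ∘ₗ avg ρ (Qsub φ)) (Xsub φ ψ) ((a : ℂ) - (Q : ℂ)) := by
    refine ⟨hτ', ?_⟩
    rw [hP1one, hXcard]
    ring
  -- the projection `P2`
  have hP2 : IsProjFor ρ (normSub (Qsub φ) ⊓ normSub (Xsub φ ψ))
      ((LinearMap.id ∘ₗ avg ρ (Qsub φ)) ∘ₗ avg ρ (Xsub φ ψ)) :=
    Helper91.avg_isProjFor ρ (normSub (Qsub φ)) (Xsub φ ψ) _
      (LinearMap.id ∘ₗ avg ρ (Qsub φ)) hP1 (Helper67.xsub_le_normSub φ ψ) inf_le_left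
      (fun n hn' => hn'.2)
  have hP2one : ptr ρ ((LinearMap.id ∘ₗ avg ρ (Qsub φ)) ∘ₗ avg ρ (Xsub φ ψ)) 1
      = (a : ℂ) + 1 - (Q : ℂ) := by
    have h1 := Helper91.ptr_avg_one ρ (normSub (Qsub φ)) (Xsub φ ψ)
      (LinearMap.id ∘ₗ avg ρ (Qsub φ)) hP1 (Helper67.xsub_le_normSub φ ψ) _ hτ'
    rw [hP1one, hXcard] at h1
    apply mul_right_cancel₀ hQ0
    rw [h1]; ring
  -- values of `ptr ρ P2` on `Y ∖ {1}`
  have hτ'' : ∀ y ∈ Ysub φ ψ ψ', y ≠ 1 →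
      ptr ρ ((LinearMap.id ∘ₗ avg ρ (Qsub φ)) ∘ₗ avg ρ (Xsub φ ψ)) y
        = (a : ℂ) - (Q : ℂ) + 1 - (R : ℂ) := by
    rintro y ⟨b', hφb', hψb', hψ'b', rfl⟩ hy1
    have hb' : b' ≠ 0 := by
      rintro rfl
      exact hy1 (tv_zero_right ψ')
    have hg1 : ptr ρ (LinearMap.id ∘ₗ avg ρ (Qsub φ)) (tv ψ' b') = (a : ℂ) - (Q : ℂ) := by
      rw [hQ]
      exact Helper67.md_ptr_level1_xsub ρ a hd hχ H1 hli13 hφb' hψ'b' hb'
    have hcentX : cent (Xsub φ ψ) (tv ψ' b') = R := by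
      rw [hR]; exact Helper66.cent_xsub_tv hli hφb' hψb' hψ'b' hb'
    have hgN : tv ψ' b' ∈ normSub (Qsub φ) :=
      Helper66.tv_normBy_qsub (φ := φ) (ψ := ψ') hφb' hψ'b'
    have he : ∀ x ∈ csub (Xsub φ ψ) (tv ψ' b'), x ∉ bsub (Xsub φ ψ) (tv ψ' b') →
        ptr ρ (LinearMap.id ∘ₗ avg ρ (Qsub φ)) (x * tv ψ' b')
          = ptr ρ (LinearMap.id ∘ₗ avg ρ (Qsub φ)) (tv ψ' b')
            - (cent (Xsub φ ψ) (tv ψ' b') : ℂ) := by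
      intro x hx hxB
      obtain ⟨hxQ, hxnB, hcu, hTu⟩ := H3 φ ψ ψ' b' hli hφb' hψb' hψ'b' hb' x hx hxB
      have hxN : x ∈ normSub (Qsub φ) := Helper67.xsub_le_normSub φ ψ (mem_csub.mp hx).1
      have huN : NormBy (x * tv ψ' b') (Qsub φ) := (normSub (Qsub φ)).mul_mem hxN hgN
      rw [Helper67.asm_level1_gen ρ a hd hχ hφ (x * tv ψ' b') huN hTu, hcu, ← hR, hg1, hcentX,
        Representation.char_mul_comm ρ (tv ψ' b') x,
        Helper67.asm_level1_val ρ a hd hχ hψ (tv ψ' b')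
          (Helper66.tv_normBy_qsub (φ := ψ) (ψ := ψ') hψb' hψ'b')
          (H1 ψ ψ' b' hli23 hψb' hψ'b' hb') x hxQ hxnB,
        hχ ψ' b' hψ'b' hψ' hb', Helper66.cent_qsub_tv hli23 hψb' hψ'b' hb', ← hQ]
      ring
    have hE := Helper4.lemE ρ (normSub (Qsub φ)) (Xsub φ ψ)
      (LinearMap.id ∘ₗ avg ρ (Qsub φ)) hP1 (Helper67.xsub_le_normSub φ ψ)
      (Helper20.xsub_comm φ ψ) _ hm (tv ψ' b') hgN
      (Helper66.tv_normBy_xsub hφb' hψb' hψ'b')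
      (Helper66.bsub_le_csub_xsub hφb' hψb' hψ'b')
      (H2 φ ψ ψ' b' hli hφb' hψb' hψ'b' hb') he
    rw [hE, hg1, hcentX]
  -- level 3
  have h1 := Helper91.ptr_avg_one ρ (normSub (Qsub φ) ⊓ normSub (Xsub φ ψ)) (Ysub φ ψ ψ')
    ((LinearMap.id ∘ₗ avg ρ (Qsub φ)) ∘ₗ avg ρ (Xsub φ ψ)) hP2
    (Helper67.ysub_le_normSub φ ψ ψ') _ hτ''
  rw [hP2one, hYcard] at h1
  have hproj : IsProjFor ρ ⊥
      (((LinearMap.id ∘ₗ avg ρ (Qsub φ)) ∘ₗ avg ρ (Xsub φ ψ)) ∘ₗ avg ρ (Ysub φ ψ ψ')) := by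
    apply Helper91.avg_isProjFor ρ (normSub (Qsub φ) ⊓ normSub (Xsub φ ψ)) (Ysub φ ψ ψ') ⊥
      ((LinearMap.id ∘ₗ avg ρ (Qsub φ)) ∘ₗ avg ρ (Xsub φ ψ)) hP2
      (Helper67.ysub_le_normSub φ ψ ψ') bot_le
    intro n hn'
    rw [Subgroup.mem_bot] at hn'
    subst hn'
    exact ⟨fun x hx => by simpa using hx, fun x hx => by simpa using hx⟩
  rw [Helper91.ptr_one_nat ρ ⊥ _ hproj] at h1
  obtain ⟨r, hr⟩ : ∃ r : ℕ, r = finrank ℂ (LinearMap.range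
      (((LinearMap.id ∘ₗ avg ρ (Qsub φ)) ∘ₗ avg ρ (Xsub φ ψ)) ∘ₗ avg ρ (Ysub φ ψ ψ'))) :=
    ⟨_, rfl⟩
  rw [← hr] at h1
  rw [← hQ, ← hR]
  have h2 : (r : ℂ) = (a : ℂ) + 2 - (Q : ℂ) - (R : ℂ) := by
    apply mul_right_cancel₀ hR0
    rw [h1]; ring
  have h3 : ((r + Q + R : ℕ) : ℂ) = ((a + 2 : ℕ) : ℂ) := by
    push_cast
    rw [h2]; ring
  have h4 : r + Q + R = a + 2 := by exact_mod_cast h3
  omega

end

end Cfsg.Agent.Helper64
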