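-- helper64: piece EX2 of CALL S2332 part C (owner helper90): an irreducible representation of
-- `SL_n(q)` of degree `(q^n - q)/(q - 1)` (the permutation character on lines minus 1).
import Mathlib
import Cfsg.Agent.Helper38.PermCharSL

set_option autoImplicit false

namespace Cfsg.Agent.Helper64

open Matrix Cfsg.Agent.Helper38
open scoped ComplexConjugate

section

variable {F : Type*} [Field F] [Fintype F] [DecidableEq F] {m : Type*} [Fintype m] [DecidableEq m]

/-- The permutation character on lines minus the principal character is irreducible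
(extracted from the proof of `Cfsg.Agent.Helper38.exists_irr_family`). -/
theorem mdex2_irr (hm : 2 < Fintype.card m) (i₀ : m) :
    Cfsg.IsIrrCharacter (Matrix.SpecialLinearGroup m F)
      (lineChar i₀ (1 : MulChar F ℂ) - (fun _ => 1)) := by
  classical
  letI : Fintype (MulChar F ℂ) := Fintype.ofFinite _
  let ρ : Option (MulChar F ℂ) → Matrix.SpecialLinearGroup m F → ℂ := fun o =>
    match o with
    | none => fun _ => 1
    | some θ => if θ = 1 then lineChar i₀ θ - (fun _ => 1) else lineChar i₀ θ
  have hρn : ρ none = fun _ => 1 := rfl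
  have hρ1 : ρ (some 1) = lineChar i₀ 1 - (fun _ => 1) := if_pos rfl
  have hρθ : ∀ θ : MulChar F ℂ, θ ≠ 1 → ρ (some θ) = lineChar i₀ θ := fun θ hθ => if_neg hθ
  have hone_irr : Cfsg.IsIrrCharacter (Matrix.SpecialLinearGroup m F) (fun _ => (1 : ℂ)) := by
    have := Cfsg.Agent.Helper79.isIrrCharacter_of_hom (1 : Matrix.SpecialLinearGroup m F →* ℂˣ)
    simpa using this
  have hρ : ∀ o, Cfsg.IsCharacter (Matrix.SpecialLinearGroup m F) (ρ o) := by
    intro o
    cases o with
    | none => exact Cfsg.Agent.Helper79.isCharacter_one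
    | some θ =>
      by_cases hθ : θ = 1
      · subst hθ
        rw [hρ1]
        apply isCharacter_sub_irr (lineChar_isCharacter i₀ 1) hone_irr
        rw [classInner_lineChar_one]
        exact one_ne_zero
      · rw [hρθ θ hθ]
        exact lineChar_isCharacter i₀ θ
  have hne : ∀ o, ρ o ≠ 0 := by
    intro o
    cases o with
    | none =>
      intro h
      have := congrFun h 1
      rw [hρn] at this
      simp at this
    | some θ =>
      by_cases hθ : θ = 1
      · subst hθ
        intro h
        have := congrFun h 1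
        rw [hρ1] at this
        simp only [Pi.sub_apply, Pi.zero_apply] at this
        exact lineChar_one_ne_one (by omega) i₀ 1 (sub_eq_zero.mp this)
      · intro h
        have := congrFun h 1
        rw [hρθ θ hθ] at this
        exact lineChar_one_ne_zero i₀ θ this
  have hsum : ∀ g, ρ none g + ∑ θ : MulChar F ℂ, ρ (some θ) g = fixChar F m g := by
    intro g
    have h1 : ∀ θ : MulChar F ℂ, ρ (some θ) g = lineChar i₀ θ g - (if θ = 1 then 1 else 0) := by
      intro θ
      by_cases hθ : θ = 1
      · subst hθ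
        rw [hρ1, if_pos rfl]
        rfl
      · rw [hρθ θ hθ, if_neg hθ, sub_zero]
    simp only [h1]
    rw [Finset.sum_sub_distrib, sum_lineChar (by omega) i₀ g,
      Finset.sum_ite_eq' Finset.univ (1 : MulChar F ℂ), if_pos (Finset.mem_univ _), hρn]
    unfold fixChar
    ring
  have hsum' : ∑ o, ρ o = fixChar F m := by
    funext g
    rw [Finset.sum_apply, Fintype.sum_option]
    exact hsum g
  have hnorm : Cfsg.classInner (∑ o, ρ o) (∑ o, ρ o) =
      (Fintype.card (Option (MulChar F ℂ)) : ℂ) := by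
    rw [hsum', classInner_fixChar hm, Fintype.card_option, card_mulChar]
    have := Fintype.one_lt_card (α := F)
    congr 1
    omega
  obtain ⟨hirr, -⟩ := irr_of_sum_inner ρ hρ hne hnorm
  have h := hirr (some 1)
  rw [hρ1] at h
  exact h

/-- The number of nonzero vectors. -/
theorem mdex2_card_nz : Nat.card {v : m → F // v ≠ 0} = Fintype.card F ^ Fintype.card m - 1 := by
  classical
  rw [Nat.card_eq_fintype_card, Fintype.card_subtype_compl, Fintype.card_subtype_eq,
    Fintype.card_fun]

/-- `|SL_m(F)| = |Stab e| * (q^m - 1)`. -/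
theorem mdex2_card_sl (hm : 1 < Fintype.card m) (i₀ : m) :
    Nat.card (Matrix.SpecialLinearGroup m F) =
      Nat.card {x : Matrix.SpecialLinearGroup m F // x.1 *ᵥ stdVec i₀ = (stdVec i₀ : m → F)} *
        (Fintype.card F ^ Fintype.card m - 1) := by
  rw [← mdex2_card_nz, ← natCard_orbit_pred hm i₀ (fun v => v ≠ 0) (fun v hv => hv)]
  refine Nat.card_congr (Equiv.subtypeUnivEquiv ?_).symm
  intro x
  exact sl_mulVec_ne_zero x (stdVec_ne_zero i₀)

end

/-- PIECE EX2 -/
theorem exists_irr_sl {F : Type*} [Field F] [Fintype F] [DecidableEq F] (n : ℕ) (hn : 3 ≤ n) :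
    ∃ ρ : Representation ℂ (Matrix.SpecialLinearGroup (Fin n) F)
      (Fin ((Fintype.card F ^ n - Fintype.card F) / (Fintype.card F - 1)) → ℂ),
      ρ.IsIrreducible := by
  classical
  have hm2 : 2 < Fintype.card (Fin n) := by rw [Fintype.card_fin]; omega
  have hm1 : 1 < Fintype.card (Fin n) := by omega
  let i₀ : Fin n := ⟨0, by omega⟩
  obtain ⟨k, ρ, hρirr, hρchar⟩ := mdex2_irr (F := F) hm2 i₀
  have hq : 1 < Fintype.card F := Fintype.one_lt_card
  set q := Fintype.card F with hqdef
  have h1 : ρ.character 1 = (k : ℂ) := by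
    rw [Representation.char_one, Module.finrank_fin_fun]
  have h2 : (k : ℂ) = (Nat.card (Matrix.SpecialLinearGroup (Fin n) F) : ℂ) /
      (Nat.card (lineStab F i₀) : ℂ) - 1 := by
    rw [← h1, hρchar, Pi.sub_apply, lineChar_one]
  rw [natCard_lineStab hm1 i₀, mdex2_card_sl hm1 i₀, Fintype.card_fin] at h2
  have hs : 0 < Nat.card {x : Matrix.SpecialLinearGroup (Fin n) F //
      x.1 *ᵥ stdVec i₀ = (stdVec i₀ : Fin n → F)} := natCard_stab_pos i₀
  set s := Nat.card {x : Matrix.SpecialLinearGroup (Fin n) F //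
      x.1 *ᵥ stdVec i₀ = (stdVec i₀ : Fin n → F)} with hsdef
  have hqn : q ≤ q ^ n := by
    calc q = q ^ 1 := (pow_one q).symm
      _ ≤ q ^ n := Nat.pow_le_pow_right (by omega) (by omega)
  have h3 : k * (q - 1) = q ^ n - q := by
    have hs' : (s : ℂ) ≠ 0 := by exact_mod_cast hs.ne'
    have hq' : ((q - 1 : ℕ) : ℂ) ≠ 0 := by
      have : q - 1 ≠ 0 := by omega
      exact_mod_cast this
    have h4 : (k : ℂ) * ((q - 1 : ℕ) : ℂ) = ((q ^ n - 1 : ℕ) : ℂ) - ((q - 1 : ℕ) : ℂ) := by
      rw [h2, ← hqdef, Nat.cast_mul, Nat.cast_mul, mul_div_mul_left _ _ hs', sub_mul, one_mul,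
        div_mul_cancel₀ _ hq']
    have h5 : ((k * (q - 1) : ℕ) : ℂ) = ((q ^ n - q : ℕ) : ℂ) := by
      rw [Nat.cast_mul, h4, Nat.cast_sub (by omega : 1 ≤ q ^ n), Nat.cast_sub (by omega : 1 ≤ q),
        Nat.cast_sub hqn]
      ring
    exact_mod_cast h5
  have hk : k = (q ^ n - q) / (q - 1) := by
    rw [← h3, Nat.mul_div_cancel _ (by omega : 0 < q - 1)]
  subst hk
  exact ⟨ρ, hρirr⟩

end Cfsg.Agent.Helper64
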