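import Mathlib
import Cfsg.Agent.Helper64.MetaFrattini

set_option autoImplicit false

namespace Cfsg.Agent.Helper64

variable {G : Type*} [Group G]

namespace MCData

variable {p : ℕ} {a b : G} {m r n k w : ℕ}

/-- commutation of general elements -/
theorem comm_form (D : MCData p a b m r n k w) (i j u v : ℕ) :
    (a ^ i * b ^ j) * (a ^ u * b ^ v) = (a ^ u * b ^ v) * (a ^ i * b ^ j) ↔
      i + u * k ^ j ≡ u + i * k ^ v [MOD p ^ m] := by
  rw [D.mul_form, D.mul_form, add_comm v j, mul_left_inj, D.apow_eq_iff]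

theorem dvd_of_pow_dvd_mul_pow {p : ℕ} (hp : p.Prime) {n f u : ℕ} (h : p ^ n ∣ u * p ^ f) :
    p ^ (n - f) ∣ u := by
  by_cases hfn : f ≤ n
  · have e : p ^ n = p ^ (n - f) * p ^ f := by rw [← pow_add, Nat.sub_add_cancel hfn]
    rw [e] at h
    exact Nat.dvd_of_mul_dvd_mul_right (pow_pos hp.pos f) h
  · have e : n - f = 0 := by omega
    rw [e]; simp

/-- **the centralizer of a subgroup** -/
theorem centralizer_data [Finite G] (D : MCData p a b m r n k w) (R : Subgroup G) :
    ∃ e f : ℕ, e ≤ m ∧ f ≤ r ∧ Nat.card R = p ^ (m - e + (r - f)) ∧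
      Nat.card (Subgroup.centralizer (R : Set G)) ≤ p ^ (r - (n - e)) * p ^ (m - (n - f)) ∧
      (Subgroup.center G ≤ R → e ≤ n ∧ f ≤ n ∧
        Nat.card (Subgroup.centralizer (R : Set G)) = p ^ (r - (n - e)) * p ^ (m - (n - f))) := by
  haveI := D.hnorm
  have hp := D.hp
  have hnm := D.hnm
  have hnr := D.n_le_r
  haveI : Fact p.Prime := ⟨hp⟩
  obtain ⟨e, f, i₀, hem, hfr, haR, hyR, hP4, hP5, hrep, hcard⟩ := D.exists_sub_data R
  set C := Subgroup.centralizer (R : Set G) with hC
  set β := QuotientGroup.mk' (Subgroup.zpowers a) b with hβ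
  have hβo : orderOf β = p ^ r := D.orderOf_mk_b
  -- kernel part
  have h1 : C ⊓ Subgroup.zpowers a ≤ Subgroup.zpowers (a ^ p ^ (n - f)) := by
    intro x hx
    obtain ⟨hx1, hx2⟩ := Subgroup.mem_inf.mp hx
    obtain ⟨u, rfl⟩ := mem_zpowers_iff_nat.mp hx2
    have h2 := (Subgroup.mem_centralizer_iff.mp hx1) _ hyR
    have h3 : b ^ p ^ f * a ^ u = a ^ u * b ^ p ^ f := by
      have e1 : a ^ i₀ * b ^ p ^ f * a ^ u = a ^ i₀ * (b ^ p ^ f * a ^ u) := by group
      have e2 : a ^ u * (a ^ i₀ * b ^ p ^ f) = a ^ i₀ * (a ^ u * b ^ p ^ f) := by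
        rw [← mul_assoc, ← mul_assoc, ← pow_add, ← pow_add, add_comm]
      rw [e1, e2] at h2
      exact mul_left_cancel h2
    have h4 := (D.comm_iff u (p ^ f)).mp h3
    exact apow_mem_zpowers (n - f) u (dvd_of_pow_dvd_mul_pow hp h4)
  -- image part
  have h2 : C.map (QuotientGroup.mk' (Subgroup.zpowers a)) ≤ Subgroup.zpowers (β ^ p ^ (n - e)) := by
    rintro _ ⟨z, hz, rfl⟩
    obtain ⟨u, v, rfl⟩ := D.hgen z
    have h3 := (Subgroup.mem_centralizer_iff.mp hz) _ haR
    have h4 : b ^ v * a ^ p ^ e = a ^ p ^ e * b ^ v := by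
      have e1 : a ^ p ^ e * (a ^ u * b ^ v) = a ^ u * (a ^ p ^ e * b ^ v) := by
        rw [← mul_assoc, ← mul_assoc, ← pow_add, ← pow_add, add_comm]
      have e2 : a ^ u * b ^ v * a ^ p ^ e = a ^ u * (b ^ v * a ^ p ^ e) := by group
      rw [e1, e2] at h3
      exact (mul_left_cancel h3).symm
    have h5 := (D.comm_iff (p ^ e) v).mp h4
    rw [mul_comm] at h5
    obtain ⟨c, rfl⟩ := dvd_of_pow_dvd_mul_pow hp h5
    rw [D.mk_form, ← hβ, pow_mul]
    exact Subgroup.pow_mem _ (Subgroup.mem_zpowers _) _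
  have hcz1 : Nat.card (Subgroup.zpowers (a ^ p ^ (n - f))) = p ^ (m - (n - f)) :=
    D.card_zpowers_apow (by omega)
  have hcz2 : Nat.card (Subgroup.zpowers (β ^ p ^ (n - e))) = p ^ (r - (n - e)) := by
    rw [Nat.card_zpowers, orderOf_pow_of_dvd (pow_pos hp.pos _).ne'
      (by rw [hβo]; exact pow_dvd_pow p (by omega)), hβo, Nat.pow_div (by omega) hp.pos]
  have hc1 : Nat.card (C ⊓ Subgroup.zpowers a : Subgroup G) ≤ p ^ (m - (n - f)) := by
    have := Subgroup.card_le_of_le h1
    rwa [hcz1] at this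
  have hc2 : Nat.card (C.map (QuotientGroup.mk' (Subgroup.zpowers a))) ≤ p ^ (r - (n - e)) := by
    have := Subgroup.card_le_of_le h2
    rwa [hcz2] at this
  have hCcard := card_eq_card_map_mk_mul_card_inf C (Subgroup.zpowers a)
  refine ⟨e, f, hem, hfr, hcard, ?_, ?_⟩
  · rw [hCcard]
    exact Nat.mul_le_mul hc2 hc1
  · intro hZ
    have haZ : a ^ p ^ n ∈ R := hZ (by
      rw [D.center_eq]; exact Subgroup.mem_sup_left (Subgroup.mem_zpowers _))
    have hbZ : b ^ p ^ n ∈ R := hZ (by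
      rw [D.center_eq]; exact Subgroup.mem_sup_right (Subgroup.mem_zpowers _))
    have hen : e ≤ n := (Nat.pow_dvd_pow_iff_le_right hp.one_lt).mp (hP4 _ haZ)
    have hfn : f ≤ n := by
      have : a ^ 0 * b ^ p ^ n ∈ R := by simpa using hbZ
      exact (Nat.pow_dvd_pow_iff_le_right hp.one_lt).mp (hP5 0 _ this)
    refine ⟨hen, hfn, ?_⟩
    -- the constraint on i₀
    have hcon : p ^ e ∣ i₀ * p ^ (n - f) := by
      have h3 : (a ^ i₀ * b ^ p ^ f) ^ p ^ (n - f) ∈ R := R.pow_mem hyR _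
      rw [D.pow_form, ← pow_add, Nat.add_sub_cancel' hfn] at h3
      have h4 : a ^ (i₀ * ∑ t ∈ Finset.range (p ^ (n - f)), (k ^ p ^ f) ^ t) ∈ R := by
        have := R.mul_mem h3 (R.inv_mem hbZ)
        simpa using this
      have h5 := hP4 _ h4
      exact (geom_dvd hp D.hodd (D.dvd_kpow_sub_one' _) (D.kpow_pos _) i₀ (p ^ (n - f)) e).mp h5
    have hcon' : p ^ f ∣ i₀ * p ^ (n - e) := by
      rcases Nat.eq_zero_or_pos i₀ with h0 | h0
      · rw [h0]; simp
      · have hne1 : i₀ * p ^ (n - f) ≠ 0 := mul_ne_zero h0.ne' (pow_pos hp.pos _).ne'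
        have hne2 : i₀ * p ^ (n - e) ≠ 0 := mul_ne_zero h0.ne' (pow_pos hp.pos _).ne'
        rw [padicValNat_dvd_iff_le hne1, padicValNat.mul h0.ne' (pow_pos hp.pos _).ne',
          padicValNat.prime_pow] at hcon
        rw [padicValNat_dvd_iff_le hne2, padicValNat.mul h0.ne' (pow_pos hp.pos _).ne',
          padicValNat.prime_pow]
        omega
    -- the kernel part is everything
    have hk1 : Subgroup.zpowers (a ^ p ^ (n - f)) ≤ C ⊓ Subgroup.zpowers a := by
      rw [Subgroup.zpowers_le]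
      refine Subgroup.mem_inf.mpr ⟨?_, Subgroup.pow_mem _ (Subgroup.mem_zpowers a) _⟩
      rw [hC, Subgroup.mem_centralizer_iff]
      intro z hz
      obtain ⟨u, l, rfl⟩ := hrep z hz
      have c1 : Commute (a ^ p ^ (n - f)) (a ^ (p ^ e * u)) := (Commute.refl a).pow_pow _ _
      have c2 : Commute (a ^ p ^ (n - f)) (a ^ i₀) := (Commute.refl a).pow_pow _ _
      have c3 : Commute (a ^ p ^ (n - f)) (b ^ p ^ f) := by
        have := (D.comm_iff (p ^ (n - f)) (p ^ f)).mpr (by
          rw [← pow_add, Nat.sub_add_cancel hfn])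
        exact this.symm
      exact (c1.mul_right ((c2.mul_right c3).pow_right l)).eq.symm
    -- the image part is everything
    have hk2 : Subgroup.zpowers (β ^ p ^ (n - e)) ≤ C.map (QuotientGroup.mk' (Subgroup.zpowers a)) := by
      -- solve the congruence
      have hB : p ^ (m - n + f) ∣ i₀ * (k ^ p ^ (n - e) - 1) := by
        rw [lte_dvd hp D.hodd D.hpk D.k_pos]
        obtain ⟨c, hc⟩ := hcon'
        have e1 : k - 1 = p ^ (m - n) * w := by rw [D.hkw]; simp
        rw [e1, pow_add]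
        exact ⟨w * c, by
          calc i₀ * (p ^ (m - n) * w * p ^ (n - e)) = p ^ (m - n) * w * (i₀ * p ^ (n - e)) := by ring
            _ = p ^ (m - n) * w * (p ^ f * c) := by rw [hc]
            _ = p ^ (m - n) * p ^ f * (w * c) := by ring⟩
      have hx₀ : ∃ x₀ : ℕ, a ^ (i₀ * (k ^ p ^ (n - e) - 1)) = a ^ ((k ^ p ^ f - 1) * x₀) := by
        rcases hfn.eq_or_lt with hfeq | hflt
        · refine ⟨0, ?_⟩
          rw [mul_zero, pow_zero, D.apow_eq_one_iff]
          have e2 : m - n + f = m := by omega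
          rwa [e2] at hB
        · have hw : ¬ p ∣ w := by
            rcases D.hw with h0 | h0
            · omega
            · exact h0
          obtain ⟨E, hEm, hE⟩ := exists_eq_zpowers_pow_prime_pow hp D.ha
            (Subgroup.zpowers (a ^ (k ^ p ^ f - 1)))
            (by rw [Subgroup.zpowers_le]; exact Subgroup.pow_mem _ (Subgroup.mem_zpowers a) _)
          have h3 : a ^ (k ^ p ^ f - 1) ∈ Subgroup.zpowers (a ^ p ^ E) := by
            rw [← hE]; exact Subgroup.mem_zpowers _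
          obtain ⟨t, ht⟩ := mem_zpowers_iff_nat.mp h3
          rw [← pow_mul, D.apow_eq_iff] at ht
          have h4 : p ^ E ∣ k ^ p ^ f - 1 := (ht.dvd_iff (pow_dvd_pow p hEm)).mpr (dvd_mul_right _ _)
          have h5 : ¬ p ^ (m - n + f + 1) ∣ k ^ p ^ f - 1 := by
            intro h6
            have h7 := (lte_dvd hp D.hodd D.hpk D.k_pos 1 (p ^ f) (m - n + f + 1)).mp (by simpa using h6)
            have e1 : k - 1 = p ^ (m - n) * w := by rw [D.hkw]; simp
            rw [one_mul, e1] at h7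
            have e3 : p ^ (m - n) * w * p ^ f = p ^ (m - n + f) * w := by rw [pow_add]; ring
            rw [e3, pow_succ] at h7
            exact hw (Nat.dvd_of_mul_dvd_mul_left (pow_pos hp.pos _) h7)
          have hE2 : E ≤ m - n + f := by
            by_contra hcon2
            push Not at hcon2
            exact h5 ((pow_dvd_pow p hcon2).trans h4)
          have h6 : a ^ (i₀ * (k ^ p ^ (n - e) - 1)) ∈ Subgroup.zpowers (a ^ (k ^ p ^ f - 1)) := by
            rw [hE]
            exact apow_mem_zpowers E _ ((pow_dvd_pow p hE2).trans hB)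
          obtain ⟨x₀, hx₀⟩ := mem_zpowers_iff_nat.mp h6
          exact ⟨x₀, by rw [hx₀, ← pow_mul]⟩
      obtain ⟨x₀, hx₀⟩ := hx₀
      rw [D.apow_eq_iff] at hx₀
      have hcy : (a ^ x₀ * b ^ p ^ (n - e)) * (a ^ i₀ * b ^ p ^ f) =
          (a ^ i₀ * b ^ p ^ f) * (a ^ x₀ * b ^ p ^ (n - e)) := by
        rw [D.comm_form]
        have h1' := D.kpow_pos (p ^ (n - e))
        have h2' := D.kpow_pos (p ^ f)
        have e1 : x₀ + i₀ * k ^ p ^ (n - e) = (x₀ + i₀) + i₀ * (k ^ p ^ (n - e) - 1) := by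
          have : i₀ ≤ i₀ * k ^ p ^ (n - e) := Nat.le_mul_of_pos_right i₀ h1'
          rw [Nat.mul_sub_one]; omega
        have e2 : i₀ + x₀ * k ^ p ^ f = (x₀ + i₀) + (k ^ p ^ f - 1) * x₀ := by
          have : x₀ ≤ x₀ * k ^ p ^ f := Nat.le_mul_of_pos_right x₀ h2'
          rw [mul_comm (k ^ p ^ f - 1), Nat.mul_sub_one]; omega
        rw [e1, e2]
        exact Nat.ModEq.add_left _ hx₀
      have hcC : a ^ x₀ * b ^ p ^ (n - e) ∈ C := by
        rw [hC, Subgroup.mem_centralizer_iff]
        intro z hz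
        obtain ⟨u, l, rfl⟩ := hrep z hz
        have c1 : Commute (a ^ x₀ * b ^ p ^ (n - e)) (a ^ (p ^ e * u)) := by
          have c2 : Commute (a ^ x₀) (a ^ (p ^ e * u)) := (Commute.refl a).pow_pow _ _
          have c3 : Commute (b ^ p ^ (n - e)) (a ^ (p ^ e * u)) := by
            have := (D.comm_iff (p ^ e * u) (p ^ (n - e))).mpr (by
              have e3 : p ^ e * u * p ^ (n - e) = p ^ n * u := by
                rw [mul_right_comm, ← pow_add, Nat.add_sub_cancel' hen]
              rw [e3]; exact dvd_mul_right _ _)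
            exact this
          exact c2.mul_left c3
        have c4 : Commute (a ^ x₀ * b ^ p ^ (n - e)) (a ^ i₀ * b ^ p ^ f) := hcy
        exact (c1.mul_right (c4.pow_right l)).eq.symm
      rw [Subgroup.zpowers_le]
      refine ⟨a ^ x₀ * b ^ p ^ (n - e), hcC, ?_⟩
      rw [D.mk_form]
    have hd1 : p ^ (m - (n - f)) ≤ Nat.card (C ⊓ Subgroup.zpowers a : Subgroup G) := by
      have := Subgroup.card_le_of_le hk1
      rwa [hcz1] at this
    have hd2 : p ^ (r - (n - e)) ≤ Nat.card (C.map (QuotientGroup.mk' (Subgroup.zpowers a))) := by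
      have := Subgroup.card_le_of_le hk2
      rwa [hcz2] at this
    rw [hCcard, le_antisymm hc1 hd1, le_antisymm hc2 hd2]

/-- the Chermak–Delgado bound -/
theorem card_mul_card_centralizer_le [Finite G] (D : MCData p a b m r n k w) (R : Subgroup G) :
    Nat.card R * Nat.card (Subgroup.centralizer (R : Set G)) ≤ p ^ (2 * (m + r - n)) := by
  obtain ⟨e, f, hem, hfr, hcard, hle, -⟩ := D.centralizer_data R
  have hnm := D.hnm
  have hnr := D.n_le_r
  rw [hcard]
  calc p ^ (m - e + (r - f)) * Nat.card (Subgroup.centralizer (R : Set G))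
      ≤ p ^ (m - e + (r - f)) * (p ^ (r - (n - e)) * p ^ (m - (n - f))) := Nat.mul_le_mul_left _ hle
    _ = p ^ (m - e + (r - f) + (r - (n - e) + (m - (n - f)))) := by rw [← pow_add, ← pow_add]
    _ ≤ p ^ (2 * (m + r - n)) := Nat.pow_le_pow_right D.hp.pos (by omega)

/-- the Chermak–Delgado bound is attained by the subgroups containing the center -/
theorem card_mul_card_centralizer_eq [Finite G] (D : MCData p a b m r n k w) (R : Subgroup G)
    (hZ : Subgroup.center G ≤ R) :
    Nat.card R * Nat.card (Subgroup.centralizer (R : Set G)) = p ^ (2 * (m + r - n)) := by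
  obtain ⟨e, f, hem, hfr, hcard, -, heq⟩ := D.centralizer_data R
  obtain ⟨hen, hfn, hC⟩ := heq hZ
  have hnm := D.hnm
  have hnr := D.n_le_r
  rw [hcard, hC, ← pow_add, ← pow_add]
  congr 1
  omega

end MCData

end Cfsg.Agent.Helper64
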