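import Mathlib
import Cfsg.Agent.Helper64.MetaCent

set_option autoImplicit false

namespace Cfsg.Agent.Helper64

variable {G : Type*} [Group G]

namespace MCData

variable {p : ℕ} {a b : G} {m r n k w : ℕ}

/-- `a ^ Y ∈ ⟨a ^ X⟩` when `Y` is at least as divisible by `p` as `X` -/
theorem apow_mem_zpowers_apow [Finite G] (D : MCData p a b m r n k w) (X Y : ℕ)
    (h : ∀ s ≤ m, p ^ s ∣ X → p ^ s ∣ Y) : a ^ Y ∈ Subgroup.zpowers (a ^ X) := by
  obtain ⟨E, hEm, hE⟩ := exists_eq_zpowers_pow_prime_pow D.hp D.ha (Subgroup.zpowers (a ^ X))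
    (by rw [Subgroup.zpowers_le]; exact Subgroup.pow_mem _ (Subgroup.mem_zpowers a) _)
  have h3 : a ^ X ∈ Subgroup.zpowers (a ^ p ^ E) := by
    rw [← hE]; exact Subgroup.mem_zpowers _
  obtain ⟨t, ht⟩ := mem_zpowers_iff_nat.mp h3
  rw [← pow_mul, D.apow_eq_iff] at ht
  have h4 : p ^ E ∣ X := (ht.dvd_iff (pow_dvd_pow p hEm)).mpr (dvd_mul_right _ _)
  rw [hE]
  exact apow_mem_zpowers E Y (h E hEm h4)

/-- **factorization** of a metacyclic `p`-group, `p` odd, as a product of two cyclic subgroups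
with trivial intersection -/
theorem exists_cyclic_factorization [Finite G] (D : MCData p a b m r n k w) :
    ∃ x y : G, Subgroup.zpowers x ⊓ Subgroup.zpowers y = ⊥ ∧
      orderOf x * orderOf y = p ^ (m + r) := by
  haveI := D.hnorm
  have hp := D.hp
  obtain ⟨E, hEm, hE⟩ := exists_eq_zpowers_pow_prime_pow hp D.ha
    (Subgroup.zpowers a ⊓ Subgroup.zpowers b) inf_le_left
  set β := QuotientGroup.mk' (Subgroup.zpowers a) b with hβ
  have hβo : orderOf β = p ^ r := D.orderOf_mk_b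
  -- the order of b
  have hob : orderOf b = p ^ (m - E + r) := by
    rw [← Nat.card_zpowers, card_eq_card_map_mk_mul_card_inf (Subgroup.zpowers b) (Subgroup.zpowers a),
      MonoidHom.map_zpowers, inf_comm, hE, D.card_zpowers_apow hEm, Nat.card_zpowers, ← hβ, hβo,
      ← pow_add, add_comm]
  have h1 : b ^ p ^ r ∈ Subgroup.zpowers a ⊓ Subgroup.zpowers b :=
    Subgroup.mem_inf.mpr ⟨(D.hbN _).mpr dvd_rfl, Subgroup.pow_mem _ (Subgroup.mem_zpowers b) _⟩
  rw [hE] at h1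
  obtain ⟨c₀, hc₀⟩ := mem_zpowers_iff_nat.mp h1
  by_cases hEm' : E = m
  · refine ⟨a, b, ?_, ?_⟩
    · rw [hE, hEm', ← D.ha, pow_orderOf_eq_one, Subgroup.zpowers_one_eq_bot]
    · rw [hob, D.ha, hEm', Nat.sub_self, zero_add, pow_add]
  have hElt : E < m := lt_of_le_of_ne hEm hEm'
  set ρ := min r E with hρ
  have hρr : ρ ≤ r := min_le_left r E
  have hρE : ρ ≤ E := min_le_right r E
  set J := p ^ (r - ρ) with hJ
  have hJρ : J * p ^ ρ = p ^ r := by rw [hJ, ← pow_add]; congr 1; omega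
  have hS : ∀ (l s : ℕ), p ^ s ∣ (∑ t ∈ Finset.range l, (k ^ J) ^ t) ↔ p ^ s ∣ l := by
    intro l s
    have := geom_dvd hp D.hodd (D.dvd_kpow_sub_one' J) (D.kpow_pos J) 1 l s
    simpa using this
  have h2 : (a ^ (p ^ E * c₀))⁻¹ ∈
      Subgroup.zpowers (a ^ (∑ t ∈ Finset.range (p ^ ρ), (k ^ J) ^ t)) := by
    apply Subgroup.inv_mem
    apply D.apow_mem_zpowers_apow
    intro s _ hs
    have h3 : s ≤ ρ := (Nat.pow_dvd_pow_iff_le_right hp.one_lt).mp ((hS _ s).mp hs)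
    exact (pow_dvd_pow p (h3.trans hρE)).trans (dvd_mul_right _ _)
  obtain ⟨i, hi⟩ := mem_zpowers_iff_nat.mp h2
  have hy : (a ^ i * b ^ J) ^ p ^ ρ = 1 := by
    rw [D.pow_form, hJρ, hc₀, ← pow_mul, mul_comm i, pow_mul, ← hi, inv_mul_cancel]
  by_cases hrE : r ≤ E
  · -- the split case
    have hρ' : ρ = r := min_eq_left hrE
    have hJ1 : J = 1 := by rw [hJ, hρ', Nat.sub_self, pow_zero]
    have hkey : ∀ l : ℕ, (a ^ i * b ^ J) ^ l ∈ Subgroup.zpowers a → p ^ r ∣ l := by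
      intro l hl
      have h3 : (QuotientGroup.mk' (Subgroup.zpowers a)) ((a ^ i * b ^ J) ^ l) = 1 := by
        rw [QuotientGroup.mk'_apply, QuotientGroup.eq_one_iff]; exact hl
      rw [map_pow, D.mk_form, ← hβ, hJ1, pow_one, ← orderOf_dvd_iff_pow_eq_one, hβo] at h3
      exact h3
    refine ⟨a, a ^ i * b ^ J, ?_, ?_⟩
    · rw [eq_bot_iff]
      intro x hx
      obtain ⟨hx1, hx2⟩ := Subgroup.mem_inf.mp hx
      obtain ⟨l, rfl⟩ := mem_zpowers_iff_nat.mp hx2
      obtain ⟨c, rfl⟩ := hkey l hx1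
      rw [Subgroup.mem_bot, pow_mul, ← hρ', hy, one_pow]
    · have ho : orderOf (a ^ i * b ^ J) = p ^ r := by
        apply Nat.dvd_antisymm
        · rw [orderOf_dvd_iff_pow_eq_one, ← hρ']; exact hy
        · apply hkey
          rw [pow_orderOf_eq_one]; exact Subgroup.one_mem _
      rw [ho, D.ha, pow_add]
  · -- the non-split case
    push Not at hrE
    have hρ' : ρ = E := min_eq_right hrE.le
    -- c₀ is prime to p
    have hc₀p : ¬ p ∣ c₀ := by
      intro hpc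
      have h3 : a ^ p ^ E ∈ Subgroup.zpowers a ⊓ Subgroup.zpowers b := by
        rw [hE]; exact Subgroup.mem_zpowers _
      obtain ⟨j, hj⟩ := mem_zpowers_iff_nat.mp (Subgroup.mem_inf.mp h3).2
      have h4 : p ^ r ∣ j := (D.hbN j).mp (by
        rw [← hj]; exact Subgroup.pow_mem _ (Subgroup.mem_zpowers a) _)
      obtain ⟨j', rfl⟩ := h4
      rw [pow_mul, hc₀, ← pow_mul, ← pow_mul, D.apow_eq_iff] at hj
      have h5 : p ^ (E + 1) ∣ p ^ E * (c₀ * j') := by
        obtain ⟨c', rfl⟩ := hpc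
        exact ⟨c' * j', by rw [pow_succ]; ring⟩
      have h6 := (hj.dvd_iff (pow_dvd_pow p (Nat.succ_le_of_lt hElt))).mpr h5
      have := (Nat.pow_dvd_pow_iff_le_right hp.one_lt).mp h6
      omega
    have hpi : ¬ p ∣ i := by
      intro hpi
      have h3 : a ^ ((∑ t ∈ Finset.range (p ^ ρ), (k ^ J) ^ t) * i + p ^ E * c₀) = 1 := by
        rw [pow_add, pow_mul, ← hi, inv_mul_cancel]
      rw [D.apow_eq_one_iff] at h3
      have h4 : p ^ (E + 1) ∣ (∑ t ∈ Finset.range (p ^ ρ), (k ^ J) ^ t) * i := by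
        have h5 : p ^ E ∣ (∑ t ∈ Finset.range (p ^ ρ), (k ^ J) ^ t) := by
          rw [hS, hρ']
        rw [pow_succ]
        exact Nat.mul_dvd_mul h5 hpi
      have h6 : p ^ (E + 1) ∣ p ^ E * c₀ :=
        (Nat.dvd_add_right h4).mp ((pow_dvd_pow p (Nat.succ_le_of_lt hElt)).trans h3)
      rw [pow_succ] at h6
      exact hc₀p (Nat.dvd_of_mul_dvd_mul_left (pow_pos hp.pos E) h6)
    have hkey : ∀ l : ℕ, (a ^ i * b ^ J) ^ l ∈ Subgroup.zpowers b → p ^ E ∣ l := by
      intro l hl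
      rw [D.pow_form] at hl
      have h4 : a ^ (i * ∑ t ∈ Finset.range l, (k ^ J) ^ t) ∈
          Subgroup.zpowers a ⊓ Subgroup.zpowers b := by
        refine Subgroup.mem_inf.mpr ⟨Subgroup.pow_mem _ (Subgroup.mem_zpowers a) _, ?_⟩
        have := Subgroup.mul_mem _ hl
          (Subgroup.inv_mem _ (Subgroup.pow_mem _ (Subgroup.mem_zpowers b) (J * l)))
        simpa using this
      rw [hE] at h4
      obtain ⟨c, hc⟩ := mem_zpowers_iff_nat.mp h4
      rw [← pow_mul, D.apow_eq_iff] at hc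
      have h5 : p ^ E ∣ i * ∑ t ∈ Finset.range l, (k ^ J) ^ t :=
        (hc.dvd_iff (pow_dvd_pow p hEm)).mpr (dvd_mul_right _ _)
      have hco : Nat.Coprime (p ^ E) i :=
        Nat.Coprime.pow_left E ((Nat.Prime.coprime_iff_not_dvd hp).mpr hpi)
      exact (hS l E).mp (hco.dvd_of_dvd_mul_left h5)
    refine ⟨b, a ^ i * b ^ J, ?_, ?_⟩
    · rw [eq_bot_iff]
      intro x hx
      obtain ⟨hx1, hx2⟩ := Subgroup.mem_inf.mp hx
      obtain ⟨l, rfl⟩ := mem_zpowers_iff_nat.mp hx2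
      obtain ⟨c, rfl⟩ := hkey l hx1
      rw [Subgroup.mem_bot, pow_mul, ← hρ', hy, one_pow]
    · have ho : orderOf (a ^ i * b ^ J) = p ^ E := by
        apply Nat.dvd_antisymm
        · rw [orderOf_dvd_iff_pow_eq_one, ← hρ']; exact hy
        · apply hkey
          rw [pow_orderOf_eq_one]; exact Subgroup.one_mem _
      rw [ho, hob, ← pow_add]
      congr 1
      omega

end MCData

end Cfsg.Agent.Helper64
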