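import Mathlib
import Cfsg.Prelude.Def_OddOrderLocal
import Cfsg.Prelude.Def_Transfer
import Cfsg.Agent.Helper64.PiTwo

set_option autoImplicit false

namespace Cfsg.Agent.Helper64

universe u

section PiTwoMain

open scoped commutatorElement

variable {G : Type u} [Group G]

/-- Burnside's transfer theorem, with the commutator subgroup inside the complement. -/
theorem burnside_package [Finite G] {r : ℕ} [Fact r.Prime] (Q : Sylow r G)
    (hQ : Subgroup.normalizer ((Q : Subgroup G) : Set G) ≤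
      Subgroup.centralizer ((Q : Subgroup G) : Set G)) :
    ∃ M : Subgroup G, M.Normal ∧ M.IsComplement' (Q : Subgroup G) ∧ commutator G ≤ M := by
  have hcomm : ∀ a ∈ (Q : Subgroup G), ∀ b ∈ (Q : Subgroup G), a * b = b * a := by
    intro a ha b hb
    have h1 := hQ (Subgroup.le_normalizer hb)
    exact Subgroup.mem_centralizer_iff.mp h1 a ha
  refine ⟨(MonoidHom.transferSylow Q hQ).ker, inferInstance,
    MonoidHom.ker_transferSylow_isComplement' Q hQ, ?_⟩
  rw [commutator_eq_closure, Subgroup.closure_le]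
  rintro _ ⟨a, b, rfl⟩
  rw [SetLike.mem_coe, MonoidHom.mem_ker, commutatorElement_def, map_mul, map_mul, map_mul,
    map_inv, map_inv]
  have h1 : MonoidHom.transferSylow Q hQ a * MonoidHom.transferSylow Q hQ b =
      MonoidHom.transferSylow Q hQ b * MonoidHom.transferSylow Q hQ a :=
    Subtype.ext (hcomm _ (MonoidHom.transferSylow Q hQ a).2 _ (MonoidHom.transferSylow Q hQ b).2)
  rw [h1]
  group

/-- If `k_2(G) > |P| / 2` then `G` has a normal `2`-complement. -/
theorem exists_normal_two_complement_of_card_classes [Finite G] (P : Sylow 2 G)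
    (h : Nat.card (P : Subgroup G) < 2 * Nat.card (PrimeClasses 2 G)) :
    ∃ K : Subgroup G, K.Normal ∧ Odd (Nat.card K) ∧ ∃ a : ℕ, K.index = 2 ^ a := by
  haveI : Fact (Nat.Prime 2) := ⟨Nat.prime_two⟩
  have h1 : Cfsg.HasNormalPComplement 2 G := by
    rw [Cfsg.Agent.Helper70.hasNormalPComplement_iff_frobCond]
    apply Cfsg.Agent.Helper70.frobCond_of_sylow P
    intro Q hQ g hg hcop
    by_contra hcon
    rw [Subgroup.mem_centralizer_iff] at hcon
    push Not at hcon
    obtain ⟨h', hh, hne⟩ := hcon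
    have h3 := two_mul_card_two_classes_le P Q hQ g hg (Nat.coprime_two_right.mp hcop) h' hh
      (fun hc => hne hc.eq.symm)
    have h4 : Nat.card (P : Subgroup G) <
        2 * Nat.card {c : ConjClasses G // ∀ x ∈ c.carrier, ∃ k : ℕ, orderOf x = 2 ^ k} := h
    omega
  obtain ⟨K, hKn, hKc, k, hKi⟩ := Cfsg.Agent.Helper70.hasNormalPComplement_iff_hasNPC.mp h1
  exact ⟨K, hKn, Nat.coprime_two_right.mp hKc, k, hKi⟩

/-- If `2 ∈ π` and `k_π(G) > |G|_π / 2`, then `G` has a normal `π`-complement and an abelian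
Hall subgroup for the odd primes of `π`. -/
theorem pi_two_complement_of_card_classes [Finite G] (π : Finset ℕ) (hπ : ∀ r ∈ π, r.Prime)
    (h2 : 2 ∈ π) (hk : piPart π (Nat.card G) < 2 * Nat.card (PiClasses π G)) :
    (∃ N : Subgroup G, N.Normal ∧ (∀ r : ℕ, r.Prime → r ∣ Nat.card ↥N → r ∉ π) ∧
      ∀ r : ℕ, r.Prime → r ∣ N.index → r ∈ π) ∧
    ∃ H : Subgroup G, Cfsg.IsPiHall ((↑π : Set ℕ) \ {2}) H ∧ IsMulCommutative ↥H := by
  classical
  -- step A
  have hA : ∀ r ∈ π, ∀ [Fact r.Prime] (R : Sylow r G),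
      Nat.card (R : Subgroup G) < 2 * Nat.card (PrimeClasses r G) := by
    intro r hr _ R
    have h1 := card_piClasses_le_mul (G := G) π hπ r hr
    have h3 := piPart_erase π r hr (Nat.card G)
    have hE : 0 < piPart (π.erase r) (Nat.card G) :=
      piPart_pos _ (fun q hq => hπ q (Finset.mem_of_mem_erase hq)) _
    have hRc : Nat.card (R : Subgroup G) = r ^ (Nat.card G).factorization r :=
      Sylow.card_eq_multiplicity R
    rw [← h3, ← hRc] at hk
    have h4 : Nat.card (R : Subgroup G) * piPart (π.erase r) (Nat.card G) <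
        2 * (Nat.card (PrimeClasses r G) * piPart (π.erase r) (Nat.card G)) :=
      lt_of_lt_of_le hk (Nat.mul_le_mul_left _ h1)
    by_contra hcon
    push Not at hcon
    have h6 := Nat.mul_le_mul_right (piPart (π.erase r) (Nat.card G)) hcon
    nlinarith
  -- step B
  haveI : Fact (Nat.Prime 2) := ⟨Nat.prime_two⟩
  obtain ⟨P⟩ : Nonempty (Sylow 2 G) := inferInstance
  obtain ⟨K, hKn, hKodd, a, hKi⟩ := exists_normal_two_complement_of_card_classes P (hA 2 h2 P)
  haveI := hKn
  have hπ' : ∀ r ∈ π.erase 2, r.Prime := fun r hr => hπ r (Finset.mem_of_mem_erase hr)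
  -- step C
  have hC : ∀ r ∈ π.erase 2, ∃ M : Subgroup K, M.Normal ∧ commutator K ≤ M ∧
      (Nat.card M).Coprime r ∧ ∃ b : ℕ, M.index = r ^ b := by
    intro r hr
    have hrπ : r ∈ π := Finset.mem_of_mem_erase hr
    have hr2 : r ≠ 2 := Finset.ne_of_mem_erase hr
    have hrp := hπ r hrπ
    haveI : Fact r.Prime := ⟨hrp⟩
    obtain ⟨R⟩ : Nonempty (Sylow r G) := inferInstance
    have hRK : (R : Subgroup G) ≤ K := by
      intro x hx
      apply mem_of_coprime_index K x
      obtain ⟨i, hi⟩ := R.isPGroup' ⟨x, hx⟩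
      have hi' : x ^ r ^ i = 1 := by
        have := congrArg Subtype.val hi
        simpa using this
      rw [hKi]
      apply Nat.Coprime.coprime_dvd_left (orderOf_dvd_of_pow_eq_one hi')
      exact Nat.Coprime.pow i a ((Nat.coprime_primes hrp Nat.prime_two).mpr hr2)
    let Q : Sylow r K := R.subtype hRK
    have hQmem : ∀ y : K, y ∈ (Q : Subgroup K) ↔ (y : G) ∈ (R : Subgroup G) := fun y => Iff.rfl
    have hQ : Subgroup.normalizer ((Q : Subgroup K) : Set K) ≤
        Subgroup.centralizer ((Q : Subgroup K) : Set K) := by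
      intro g hg
      rw [Subgroup.mem_centralizer_iff]
      intro h hh
      have hhR : (h : G) ∈ (R : Subgroup G) := (hQmem h).mp hh
      have hgN : (g : G) ∈ Subgroup.normalizer ((R : Subgroup G) : Set G) := by
        rw [Subgroup.mem_normalizer_iff]
        intro x
        constructor
        · intro hx
          have hxQ : (⟨x, hRK hx⟩ : K) ∈ (Q : Subgroup K) := (hQmem _).mpr hx
          have h1 := (Subgroup.mem_normalizer_iff.mp hg ⟨x, hRK hx⟩).mp hxQ
          exact (hQmem _).mp h1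
        · intro hx
          have hxK : x ∈ K := by
            have e : x = (g : G)⁻¹ * ((g : G) * x * (g : G)⁻¹) * (g : G) := by group
            rw [e]
            exact K.mul_mem (K.mul_mem (K.inv_mem g.2) (hRK hx)) g.2
          have h1 : g * (⟨x, hxK⟩ : K) * g⁻¹ ∈ (Q : Subgroup K) := (hQmem _).mpr hx
          have h3 := (Subgroup.mem_normalizer_iff.mp hg ⟨x, hxK⟩).mpr h1
          exact (hQmem _).mp h3
      have hgodd : Odd (orderOf (g : G)) := by
        rw [Subgroup.orderOf_coe]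
        exact Odd.of_dvd_nat hKodd (orderOf_dvd_natCard g)
      have h1 := (commute_of_odd_normalizer hr2 R (hA r hrπ R)).2 (g : G) hgN hgodd (h : G) hhR
      exact Subtype.ext h1.eq.symm
    obtain ⟨M, hMn, hMc, hcomm⟩ := burnside_package Q hQ
    refine ⟨M, hMn, hcomm, ?_, (Nat.card K).factorization r, ?_⟩
    · rw [← hMc.index_eq_card]
      exact ((Nat.Prime.coprime_iff_not_dvd hrp).mpr Q.not_dvd_index).symm
    · rw [hMc.symm.index_eq_card]
      exact Sylow.card_eq_multiplicity Q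
  choose! M hM using hC
  obtain ⟨hNn, h1, h3, H', hH', hH'c⟩ := pi_complement_of_family (G := K) (π.erase 2) hπ' M
    (fun r hr => (hM r hr).1) (fun r hr => (hM r hr).2.1) (fun r hr => (hM r hr).2.2.1)
    (fun r hr => (hM r hr).2.2.2)
  set N' : Subgroup K := ⨅ r ∈ π.erase 2, M r with hN'
  have hcopN : (Nat.card N').Coprime N'.index :=
    Nat.coprime_of_dvd (fun q hq hd1 hd2 => h1 q hq hd1 (h3 q hq hd2))
  have hKi2 : ∀ q : ℕ, q.Prime → q ∣ K.index → q = 2 := by
    intro q hq hd
    rw [hKi] at hd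
    exact (Nat.prime_dvd_prime_iff_eq hq Nat.prime_two).mp (hq.dvd_of_dvd_pow hd)
  refine ⟨⟨N'.map K.subtype, ?_, ?_, ?_⟩, H'.map K.subtype, ⟨?_, ?_⟩, ?_⟩
  · constructor
    intro n hn g
    obtain ⟨n', hn', rfl⟩ := hn
    have hgK : g * (n' : G) * g⁻¹ ∈ K := hKn.conj_mem _ n'.2 g
    refine ⟨⟨g * (n' : G) * g⁻¹, hgK⟩, ?_, rfl⟩
    haveI := hNn
    apply mem_of_coprime_index N'
    have ho : orderOf (⟨g * (n' : G) * g⁻¹, hgK⟩ : K) = orderOf n' := by
      rw [← Subgroup.orderOf_coe, ← Subgroup.orderOf_coe]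
      exact orderOf_conj_eq' g (n' : G)
    rw [ho]
    have hd : orderOf n' ∣ Nat.card N' := by
      have h4 := orderOf_dvd_natCard (⟨n', hn'⟩ : N')
      rwa [← Subgroup.orderOf_coe] at h4
    exact Nat.Coprime.coprime_dvd_left hd hcopN
  · intro q hq hd hqπ
    rw [Subgroup.card_subtype] at hd
    by_cases hq2 : q = 2
    · subst hq2
      have h4 : 2 ∣ Nat.card K := hd.trans (Subgroup.card_subgroup_dvd_card N')
      exact (Nat.not_even_iff_odd.mpr hKodd) (even_iff_two_dvd.mpr h4)
    · exact h1 q hq hd (Finset.mem_erase.mpr ⟨hq2, hqπ⟩)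
  · intro q hq hd
    rw [Subgroup.index_map_subtype] at hd
    rcases (Nat.Prime.dvd_mul hq).mp hd with h4 | h4
    · exact Finset.mem_of_mem_erase (h3 q hq h4)
    · rw [hKi2 q hq h4]
      exact h2
  · intro q hq hd
    rw [Subgroup.card_subtype] at hd
    have h4 := hH'.1 q hq hd
    rw [Finset.mem_coe, Finset.mem_erase] at h4
    exact ⟨Finset.mem_coe.mpr h4.2, by simpa using h4.1⟩
  · intro q hq hqπ hd
    rw [Subgroup.index_map_subtype] at hd
    have hq2 : q ≠ 2 := by simpa using hqπ.2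
    have hqπ' : q ∈ ((π.erase 2 : Finset ℕ) : Set ℕ) :=
      Finset.mem_coe.mpr (Finset.mem_erase.mpr ⟨hq2, Finset.mem_coe.mp hqπ.1⟩)
    rcases (Nat.Prime.dvd_mul hq).mp hd with h4 | h4
    · exact hH'.2 q hq hqπ' h4
    · exact hq2 (hKi2 q hq h4)
  · refine ⟨⟨?_⟩⟩
    rintro ⟨x, x', hx', rfl⟩ ⟨y, y', hy', rfl⟩
    apply Subtype.ext
    have h4 := hH'c.is_comm.comm ⟨x', hx'⟩ ⟨y', hy'⟩
    have h5 := congrArg (fun z : H' => ((z : K) : G)) h4
    simpa using h5

end PiTwoMain

end Cfsg.Agent.Helper64
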