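import Mathlib
import Cfsg.Agent.Helper64.Basic
import Cfsg.Agent.Helper64.Index

set_option autoImplicit false

namespace Cfsg.Agent.Helper64

variable {G : Type*} [Group G]

/-- conjugating by powers of an inverting element -/
theorem conj_pow_of_inverts (g x : G) (h : g * x * g⁻¹ = x⁻¹) (j : ℕ) :
    g ^ j * x * (g ^ j)⁻¹ = if Even j then x else x⁻¹ := by
  induction j with
  | zero => simp
  | succ j ih =>
    have e : g ^ (j + 1) * x * (g ^ (j + 1))⁻¹ = g * (g ^ j * x * (g ^ j)⁻¹) * g⁻¹ := by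
      rw [pow_succ']; group
    rw [e, ih]
    by_cases hj : Even j
    · have : ¬ Even (j + 1) := by
        rw [Nat.even_add_one]; exact not_not.mpr hj
      rw [if_pos hj, if_neg this, h]
    · have : Even (j + 1) := by
        rw [Nat.even_add_one]; exact hj
      rw [if_neg hj, if_pos this]
      have : g * x⁻¹ * g⁻¹ = (g * x * g⁻¹)⁻¹ := by group
      rw [this, h, inv_inv]

/-- a real element is inverted by a 2-element -/
theorem exists_two_elt_inverting [Finite G] (x : G) (hx : IsConj x x⁻¹) :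
    ∃ t : G, (∃ j : ℕ, orderOf t = 2 ^ j) ∧ t * x * t⁻¹ = x⁻¹ := by
  obtain ⟨g, hg⟩ := isConj_iff.mp hx
  have hn : orderOf g ≠ 0 := (orderOf_pos g).ne'
  obtain ⟨k, m, hm, hkm⟩ := Nat.exists_eq_two_pow_mul_odd hn
  refine ⟨g ^ m, ⟨k, ?_⟩, ?_⟩
  · have hm0 : m ≠ 0 := by
      rintro rfl
      simp at hm
    rw [orderOf_pow' g hm0, hkm, Nat.gcd_eq_right (Dvd.intro_left _ rfl)]
    exact Nat.mul_div_cancel _ (Nat.pos_of_ne_zero hm0)
  · rw [conj_pow_of_inverts g x hg m, if_neg (Nat.not_even_iff_odd.mpr hm)]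

/-- relative Sylow conjugacy: an `r`-subgroup `Y` of `K` is conjugate by an element of `K` into
any subgroup `X ≤ K` whose index in `K` is prime to `r` -/
theorem exists_mem_conj_mem_of_relIndex [Finite G] {r : ℕ} [Fact r.Prime] (K X Y : Subgroup G)
    (hY : Y ≤ K) (hYr : IsPGroup r Y) (hidx : ¬ r ∣ X.relIndex K) :
    ∃ k ∈ K, ∀ z ∈ Y, k⁻¹ * z * k ∈ X := by
  have h1 : IsPGroup r (Y.subgroupOf K) := hYr.comap_of_injective _ (Subgroup.subtype_injective _)
  obtain ⟨g, hg⟩ := exists_conj_le_of_not_dvd_index h1 (X.subgroupOf K) hidx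
  refine ⟨g.1, g.2, fun z hz => ?_⟩
  have hz' : (⟨z, hY hz⟩ : K) ∈ Y.subgroupOf K := by
    rw [Subgroup.mem_subgroupOf]; exact hz
  have := hg hz'
  rw [mem_map_conj, Subgroup.mem_subgroupOf] at this
  simpa using this

/-- Lifting a real element of odd order through a normal 2-subgroup. -/
theorem exists_real_odd_of_quotient {N : Type*} [Group N] [Finite N] (D : Subgroup N) [D.Normal]
    (hD : IsPGroup 2 D) (s y : N)
    (hinv : ((s * y * s⁻¹ : N) : N ⧸ D) = ((y⁻¹ : N) : N ⧸ D))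
    (hodd : Odd (orderOf (y : N ⧸ D))) (hne : (y : N ⧸ D) ≠ 1) :
    ∃ x : N, x ≠ 1 ∧ Odd (orderOf x) ∧ IsConj x x⁻¹ := by
  -- an odd prime r dividing the order of y
  have h1 : orderOf (y : N ⧸ D) ≠ 1 := by
    rwa [Ne, orderOf_eq_one_iff]
  obtain ⟨r, hr, hrdvd⟩ := Nat.exists_prime_and_dvd h1
  have : Fact r.Prime := ⟨hr⟩
  have hrodd : Odd r := by
    obtain ⟨c, hc⟩ := hrdvd
    rw [hc] at hodd
    exact (Nat.odd_mul.mp hodd).1
  have hr2 : r ≠ 2 := by
    rintro rfl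
    exact (Nat.not_even_iff_odd.mpr hrodd) even_two
  have hry : r ∣ orderOf y := hrdvd.trans (orderOf_map_dvd (QuotientGroup.mk' D) y)
  set j := orderOf y / r with hj
  set x := y ^ j with hx
  have hxord : orderOf x = r := orderOf_pow_orderOf_div (orderOf_pos y).ne' hry
  have hx1 : x ≠ 1 := by
    intro h
    rw [h, orderOf_one] at hxord
    exact hr.one_lt.ne hxord
  -- inversion modulo D for powers of x
  have hinvx : ∀ i : ℤ, ((s * x ^ i * s⁻¹ : N) : N ⧸ D) = (((x ^ i)⁻¹ : N) : N ⧸ D) := by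
    intro i
    have e1 : s * x ^ i * s⁻¹ = (s * y * s⁻¹) ^ ((j : ℤ) * i) := by
      rw [conj_zpow, hx, zpow_mul, zpow_natCast]
    have e2 : (x ^ i)⁻¹ = (y⁻¹) ^ ((j : ℤ) * i) := by
      rw [hx, inv_zpow, zpow_mul, zpow_natCast]
    rw [e1, e2, QuotientGroup.mk_zpow, QuotientGroup.mk_zpow, hinv]
  set X : Subgroup N := Subgroup.zpowers x with hX
  have hXcard : Nat.card X = r := by rw [Nat.card_zpowers, hxord]
  obtain ⟨e, he⟩ := hD.exists_card_eq
  have hcop : Nat.Coprime r (2 ^ e) :=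
    Nat.Coprime.pow_right e ((Nat.coprime_primes hr Nat.prime_two).mpr hr2)
  have hXD : X ⊓ D = ⊥ := Subgroup.inf_eq_bot_of_coprime (by rw [hXcard, he]; exact hcop)
  set K : Subgroup N := X ⊔ D with hK
  have hKcard : Nat.card K = r * 2 ^ e := by
    have := card_sup_mul_card_inf X D
    rw [hXD, Subgroup.card_bot, mul_one, hXcard, he] at this
    exact this
  have hrel : ¬ r ∣ X.relIndex K := by
    have h2 := card_inf_mul_relIndex X K
    rw [inf_of_le_left le_sup_left, hXcard, hKcard] at h2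
    have h3 : X.relIndex K = 2 ^ e := Nat.eq_of_mul_eq_mul_left hr.pos h2
    rw [h3]
    intro hdvd
    exact hr2 ((Nat.prime_dvd_prime_iff_eq hr Nat.prime_two).mp (hr.dvd_of_dvd_pow hdvd))
  -- Y = s X s⁻¹ ≤ K
  set Y : Subgroup N := X.map (MulAut.conj s).toMonoidHom with hY
  have hYK : Y ≤ K := by
    rintro _ ⟨z, hz, rfl⟩
    obtain ⟨i, rfl⟩ := Subgroup.mem_zpowers_iff.mp hz
    have hd : x ^ i * (s * x ^ i * s⁻¹) ∈ D := by
      rw [← QuotientGroup.eq_one_iff, QuotientGroup.mk_mul, hinvx i, ← QuotientGroup.mk_mul,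
        mul_inv_cancel]
      rfl
    have e1 : (MulAut.conj s).toMonoidHom (x ^ i) = (x ^ i)⁻¹ * (x ^ i * (s * x ^ i * s⁻¹)) := by
      simp [MulAut.conj_apply]
    rw [e1]
    exact Subgroup.mul_mem_sup (X.inv_mem hz) hd
  have hYr : IsPGroup r Y := by
    have : IsPGroup r X := IsPGroup.of_card (n := 1) (by rw [hXcard, pow_one])
    exact this.map _
  obtain ⟨k, hkK, hk⟩ := exists_mem_conj_mem_of_relIndex K X Y hYK hYr hrel
  have hwX : k⁻¹ * (s * x * s⁻¹) * k ∈ X :=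
    hk _ ⟨x, Subgroup.mem_zpowers x, by simp [MulAut.conj_apply]⟩
  obtain ⟨i, hi⟩ := Subgroup.mem_zpowers_iff.mp hwX
  -- k = z * d with z ∈ X, d ∈ D
  obtain ⟨z, hz, d, hd, hzd⟩ := Subgroup.mem_sup_of_normal_right.mp hkK
  obtain ⟨l, rfl⟩ := Subgroup.mem_zpowers_iff.mp hz
  have hkq : ((k : N) : N ⧸ D) = ((x ^ l : N) : N ⧸ D) := by
    rw [← hzd, QuotientGroup.mk_mul, (QuotientGroup.eq_one_iff d).mpr hd, mul_one]
  have hq : ((x ^ i * x : N) : N ⧸ D) = 1 := by
    rw [hi]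
    have h0 := hinvx 1
    rw [zpow_one] at h0
    simp only [QuotientGroup.mk_mul, QuotientGroup.mk_inv, hkq, QuotientGroup.mk_zpow] at h0 ⊢
    rw [h0]
    group
  have hmem : x ^ i * x ∈ X ⊓ D :=
    ⟨X.mul_mem (Subgroup.zpow_mem_zpowers x i) (Subgroup.mem_zpowers x),
      (QuotientGroup.eq_one_iff _).mp hq⟩
  rw [hXD, Subgroup.mem_bot] at hmem
  have hxi : x ^ i = x⁻¹ := eq_inv_of_mul_eq_one_left hmem
  refine ⟨x, hx1, by rw [hxord]; exact hrodd, isConj_iff.mpr ⟨k⁻¹ * s, ?_⟩⟩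
  rw [← hxi, hi]
  group

end Cfsg.Agent.Helper64
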